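import Mathlib

/-!
The numbers in the spectrum of `G₂(q)` do not divide each other.
-/

set_option autoImplicit false

namespace Cfsg.Agent.Lib.G2Oct.Arith

/-- The list of maximal orders, with `q = u + 1`. -/
def InL (p u m : ℕ) : Prop :=
  m = p * (u + 2) ∨ m = p * u ∨ m = u * (u + 2) ∨ m = u ^ 2 + 3 * u + 3 ∨ m = u ^ 2 + u + 1 ∨
    ((p = 3 ∨ p = 5) ∧ m = p ^ 2)

variable {p u : ℕ}

/-- Different numbers of the list do not divide each other. -/
theorem anti (hp : p.Prime) (hpu : p ∣ u + 1) (hu : 4 ≤ u) {x y : ℕ} (hx : InL p u x) (hy : InL p u y) (hd : x ∣ y) :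
    x = y := by
  have hp2 : 2 ≤ p := hp.two_le
  have hple : p ≤ u + 1 := Nat.le_of_dvd (by omega) hpu
  -- the numbers prime to `p`
  have not_one : ¬ p ∣ 1 := fun h => by
    have := Nat.le_of_dvd (by norm_num) h
    omega
  have hpCu : ¬ p ∣ u := by
    intro h
    exact not_one ((Nat.dvd_add_right h).mp hpu)
  have hpCu2 : ¬ p ∣ u + 2 := by
    intro h
    have : p ∣ (u + 2) - (u + 1) := Nat.dvd_sub h hpu
    rw [show (u + 2) - (u + 1) = 1 by omega] at this
    exact not_one this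
  have hC : ¬ p ∣ u * (u + 2) := by
    intro h
    rcases (Nat.Prime.dvd_mul hp).mp h with h | h
    · exact hpCu h
    · exact hpCu2 h
  have hD : ¬ p ∣ u ^ 2 + 3 * u + 3 := by
    intro h
    have e : u ^ 2 + 3 * u + 3 = (u + 1) * (u + 2) + 1 := by ring
    rw [e] at h
    exact not_one ((Nat.dvd_add_right (Dvd.dvd.mul_right hpu _)).mp h)
  have hE : ¬ p ∣ u ^ 2 + u + 1 := by
    intro h
    have e : u ^ 2 + u + 1 = (u + 1) * u + 1 := by ring
    rw [e] at h
    exact not_one ((Nat.dvd_add_right (Dvd.dvd.mul_right hpu _)).mp h)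
  have hcoD : Nat.Coprime (u ^ 2 + 3 * u + 3) p :=
    Nat.Coprime.symm ((Nat.Prime.coprime_iff_not_dvd hp).mpr hD)
  have hcoE : Nat.Coprime (u ^ 2 + u + 1) p :=
    Nat.Coprime.symm ((Nat.Prime.coprime_iff_not_dvd hp).mpr hE)
  have hA : p ∣ p * (u + 2) := dvd_mul_right _ _
  have hB : p ∣ p * u := dvd_mul_right _ _
  have hP : p ∣ p ^ 2 := dvd_pow_self p (by norm_num)
  have hpos : 0 < p := by omega
  -- a number dividing a power of `p` and prime to `p` is one
  have hcoP : ∀ z, Nat.Coprime z p → z ∣ p ^ 2 → z = 1 := by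
    intro z hz h
    exact Nat.Coprime.eq_one_of_dvd (Nat.Coprime.pow_right 2 hz) h
  rcases hx with rfl | rfl | rfl | rfl | rfl | ⟨h35, rfl⟩ <;> rcases hy with rfl | rfl | rfl | rfl | rfl | ⟨h35', rfl⟩
  -- x = p (u + 2)
  · rfl
  · exfalso
    have := Nat.le_of_dvd (by positivity) hd
    have h1 : u + 2 ≤ u := Nat.le_of_mul_le_mul_left this hpos
    omega
  · exact absurd (hA.trans hd) hC
  · exact absurd (hA.trans hd) hD
  · exact absurd (hA.trans hd) hE
  · exfalso
    have h1 : u + 2 ∣ p := by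
      rw [pow_two] at hd
      exact (Nat.mul_dvd_mul_iff_left hpos).mp hd
    have := Nat.le_of_dvd hpos h1
    omega
  -- x = p u
  · exfalso
    have h1 : u ∣ u + 2 := (Nat.mul_dvd_mul_iff_left hpos).mp hd
    have h2 : u ∣ 2 := (Nat.dvd_add_right (dvd_refl u)).mp h1
    have := Nat.le_of_dvd (by norm_num) h2
    omega
  · rfl
  · exact absurd (hB.trans hd) hC
  · exact absurd (hB.trans hd) hD
  · exact absurd (hB.trans hd) hE
  · exfalso
    have h1 : u ∣ p := by
      rw [pow_two] at hd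
      exact (Nat.mul_dvd_mul_iff_left hpos).mp hd
    rcases (Nat.dvd_prime hp).mp h1 with h | h
    · omega
    · rw [← h] at hpu
      have h5 := Nat.le_of_dvd (by omega) hpu
      exact hpCu (by rw [h])
  -- x = u (u + 2)
  · exfalso
    have h1 : u ∣ p := by
      exact Nat.dvd_of_mul_dvd_mul_right (k := u + 2) (by omega) hd
    rcases (Nat.dvd_prime hp).mp h1 with h | h
    · omega
    · exact hpCu (by rw [h])
  · exfalso
    have h1 : u + 2 ∣ p := by
      rw [mul_comm u (u + 2)] at hd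
      exact Nat.dvd_of_mul_dvd_mul_right (k := u) (by omega) hd
    rcases (Nat.dvd_prime hp).mp h1 with h | h
    · omega
    · exact hpCu2 (by rw [h])
  · rfl
  · exfalso
    refine Nat.not_dvd_of_lt_of_lt_mul_succ (k := 1) ?_ ?_ hd <;> nlinarith
  · exfalso
    have := Nat.le_of_dvd (by positivity) hd
    nlinarith
  · exfalso
    have h1 : Nat.Coprime (u * (u + 2)) p := Nat.Coprime.symm ((Nat.Prime.coprime_iff_not_dvd hp).mpr hC)
    have h2 := hcoP _ h1 hd
    nlinarith
  -- x = u ^ 2 + 3 u + 3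
  · exfalso
    have h1 : u ^ 2 + 3 * u + 3 ∣ u + 2 := hcoD.dvd_of_dvd_mul_left hd
    have := Nat.le_of_dvd (by omega) h1
    nlinarith
  · exfalso
    have := Nat.le_of_dvd (by positivity) hd
    nlinarith
  · exfalso
    have := Nat.le_of_dvd (by positivity) hd
    nlinarith
  · rfl
  · exfalso
    have := Nat.le_of_dvd (by positivity) hd
    nlinarith
  · exfalso
    have h2 := hcoP _ hcoD hd
    nlinarith
  -- x = u ^ 2 + u + 1
  · exfalso
    have h1 : u ^ 2 + u + 1 ∣ u + 2 := hcoE.dvd_of_dvd_mul_left hd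
    have := Nat.le_of_dvd (by omega) h1
    nlinarith
  · exfalso
    have h1 : u ^ 2 + u + 1 ∣ u := hcoE.dvd_of_dvd_mul_left hd
    have := Nat.le_of_dvd (by omega) h1
    nlinarith
  · exfalso
    -- `u (u + 2) = (u ^ 2 + u + 1) + (u - 1)`
    obtain ⟨v, rfl⟩ : ∃ v, u = v + 1 := ⟨u - 1, by omega⟩
    have e : (v + 1) * (v + 1 + 2) = ((v + 1) ^ 2 + (v + 1) + 1) + v := by ring
    rw [e] at hd
    have h1 := (Nat.dvd_add_right (dvd_refl _)).mp hd
    have := Nat.le_of_dvd (by omega) h1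
    nlinarith
  · exfalso
    have e : u ^ 2 + 3 * u + 3 = (u ^ 2 + u + 1) + 2 * (u + 1) := by ring
    rw [e] at hd
    have h1 := (Nat.dvd_add_right (dvd_refl _)).mp hd
    have h2 : Nat.Coprime (u ^ 2 + u + 1) (u + 1) := by
      have e2 : u ^ 2 + u + 1 = 1 + u * (u + 1) := by ring
      rw [e2]
      simp
    have h3 : u ^ 2 + u + 1 ∣ 2 := h2.dvd_of_dvd_mul_right h1
    have := Nat.le_of_dvd (by norm_num) h3
    nlinarith
  · rfl
  · exfalso
    have h2 := hcoP _ hcoE hd
    nlinarith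
  -- x = p ^ 2
  · exfalso
    have h1 : p ∣ u + 2 := by
      rw [pow_two] at hd
      exact (Nat.mul_dvd_mul_iff_left hpos).mp hd
    exact hpCu2 h1
  · exfalso
    have h1 : p ∣ u := by
      rw [pow_two] at hd
      exact (Nat.mul_dvd_mul_iff_left hpos).mp hd
    exact hpCu h1
  · exact absurd (hP.trans hd) hC
  · exact absurd (hP.trans hd) hD
  · exact absurd (hP.trans hd) hE
  · rfl

end Cfsg.Agent.Lib.G2Oct.Arith
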