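import Mathlib

/-!
Polynomials annihilating small matrices over finite fields whose coefficients are permuted by the Frobenius map.
-/

set_option autoImplicit false
set_option linter.unusedSectionVars false
set_option linter.unusedSimpArgs false
set_option linter.unusedVariables false

namespace Cfsg.Agent.Lib.G2Oct.Ord

open Polynomial

section Sym

variable {L : Type*} [Field L]

/-- Equal symmetric functions: the triples agree up to order. -/
theorem sym3 {a₁ a₂ a₃ b₁ b₂ b₃ : L} (h1 : a₁ + a₂ + a₃ = b₁ + b₂ + b₃)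
    (h2 : a₁ * a₂ + a₂ * a₃ + a₃ * a₁ = b₁ * b₂ + b₂ * b₃ + b₃ * b₁) (h3 : a₁ * a₂ * a₃ = b₁ * b₂ * b₃) :
    (a₁ = b₁ ∧ a₂ = b₂ ∧ a₃ = b₃) ∨ (a₁ = b₁ ∧ a₂ = b₃ ∧ a₃ = b₂) ∨ (a₁ = b₂ ∧ a₂ = b₁ ∧ a₃ = b₃) ∨
      (a₁ = b₂ ∧ a₂ = b₃ ∧ a₃ = b₁) ∨ (a₁ = b₃ ∧ a₂ = b₁ ∧ a₃ = b₂) ∨ (a₁ = b₃ ∧ a₂ = b₂ ∧ a₃ = b₁) := by
  have step : ∀ {c₁ c₂ c₃ d₂ d₃ : L}, c₁ + c₂ + c₃ = c₁ + d₂ + d₃ →
      c₁ * c₂ + c₂ * c₃ + c₃ * c₁ = c₁ * d₂ + d₂ * d₃ + d₃ * c₁ → (c₂ = d₂ ∧ c₃ = d₃) ∨ (c₂ = d₃ ∧ c₃ = d₂) := by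
    intro c₁ c₂ c₃ d₂ d₃ e1 e2
    have e3 : c₂ + c₃ = d₂ + d₃ := by linear_combination e1
    have e4 : c₂ * c₃ = d₂ * d₃ := by linear_combination e2 - c₁ * e3
    have e5 : (c₂ - d₂) * (c₂ - d₃) = 0 := by linear_combination c₂ * e3 - e4
    rcases mul_eq_zero.mp e5 with e6 | e6
    · left
      have : c₂ = d₂ := sub_eq_zero.mp e6
      exact ⟨this, by rw [this] at e3; linear_combination e3⟩
    · right
      have : c₂ = d₃ := sub_eq_zero.mp e6
      exact ⟨this, by rw [this] at e3; linear_combination e3⟩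
  have e0 : (a₁ - b₁) * ((a₁ - b₂) * (a₁ - b₃)) = 0 := by
    linear_combination a₁ ^ 2 * h1 - a₁ * h2 + h3
  rcases mul_eq_zero.mp e0 with e | e
  · have e' : a₁ = b₁ := sub_eq_zero.mp e
    subst e'
    rcases step h1 h2 with ⟨e2, e3⟩ | ⟨e2, e3⟩
    · exact Or.inl ⟨rfl, e2, e3⟩
    · exact Or.inr (Or.inl ⟨rfl, e2, e3⟩)
  · rcases mul_eq_zero.mp e with e | e
    · have e' : a₁ = b₂ := sub_eq_zero.mp e
      subst e'
      rcases step (c₁ := a₁) (c₂ := a₂) (c₃ := a₃) (d₂ := b₃) (d₃ := b₁) (by linear_combination h1) (by linear_combination h2) with ⟨e2, e3⟩ | ⟨e2, e3⟩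
      · exact Or.inr (Or.inr (Or.inr (Or.inl ⟨rfl, e2, e3⟩)))
      · exact Or.inr (Or.inr (Or.inl ⟨rfl, e2, e3⟩))
    · have e' : a₁ = b₃ := sub_eq_zero.mp e
      subst e'
      rcases step (c₁ := a₁) (c₂ := a₂) (c₃ := a₃) (d₂ := b₁) (d₃ := b₂) (by linear_combination h1) (by linear_combination h2) with ⟨e2, e3⟩ | ⟨e2, e3⟩
      · exact Or.inr (Or.inr (Or.inr (Or.inr (Or.inl ⟨rfl, e2, e3⟩))))
      · exact Or.inr (Or.inr (Or.inr (Or.inr (Or.inr ⟨rfl, e2, e3⟩))))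

theorem X_sub_dvd {a : L} {m : ℕ} (h : a ^ m = 1) : (X - C a) ∣ (X ^ m - 1 : L[X]) := by
  rw [dvd_iff_isRoot, IsRoot, eval_sub, eval_pow, eval_X, eval_one, h, sub_self]

theorem dvd_two {a b : L} (hab : a ≠ b) {f : L[X]} (h1 : (X - C a) ∣ f) (h2 : (X - C b) ∣ f) :
    (X - C a) * (X - C b) ∣ f :=
  (pairwise_coprime_X_sub_C (s := fun i : Bool => if i then a else b) (by
    intro i j hij
    cases i <;> cases j <;> simp_all [eq_comm]) (i := true) (j := false) (by simp)).mul_dvd (by simpa using h1) (by simpa using h2)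

theorem dvd_three {a b c : L} (hab : a ≠ b) (hac : a ≠ c) (hbc : b ≠ c) {f : L[X]} (h1 : (X - C a) ∣ f)
    (h2 : (X - C b) ∣ f) (h3 : (X - C c) ∣ f) : (X - C a) * (X - C b) * (X - C c) ∣ f := by
  have e1 : IsCoprime (X - C a) (X - C c : L[X]) := isCoprime_X_sub_C_of_isUnit_sub (by
    exact (sub_ne_zero.mpr hac).isUnit)
  have e2 : IsCoprime (X - C b) (X - C c : L[X]) := isCoprime_X_sub_C_of_isUnit_sub (by
    exact (sub_ne_zero.mpr hbc).isUnit)
  exact (e1.mul_left e2).mul_dvd (dvd_two hab h1 h2) h3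

end Sym

section Three

variable {L : Type*} [Field L] {p : ℕ} [hp : Fact p.Prime] [CharP L p]

theorem pow_char_sub (n : ℕ) : (X ^ n - 1 : L[X]) ^ p = X ^ (n * p) - 1 := by
  have : CharP L[X] p := Polynomial.charP
  rw [sub_pow_char, one_pow, pow_mul]

/-- The shape of the roots. -/
theorem three_core {ρ₁ ρ₂ ρ₃ : L} {φ : L → L} {n₁ n₂ n₃ : ℕ}
    (hprod : ρ₁ * ρ₂ * ρ₃ = 1)
    (hs1 : φ ρ₁ + φ ρ₂ + φ ρ₃ = ρ₁ + ρ₂ + ρ₃)
    (hs2 : φ ρ₁ * φ ρ₂ + φ ρ₂ * φ ρ₃ + φ ρ₃ * φ ρ₁ = ρ₁ * ρ₂ + ρ₂ * ρ₃ + ρ₃ * ρ₁)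
    (hs3 : φ ρ₁ * φ ρ₂ * φ ρ₃ = ρ₁ * ρ₂ * ρ₃)
    (hA : ∀ x, x ≠ 0 → φ x = x → x ^ n₁ = 1)
    (hB : ∀ x, x ≠ 0 → φ (φ x) = x → x ^ n₂ = 1)
    (hC : ∀ x, x ≠ 0 → x * φ x * φ (φ x) = 1 → x ^ n₃ = 1)
    (hd : n₁ ∣ n₂) :
    (∃ m, (m = n₃ ∨ m = n₂) ∧ (X - C ρ₁) * (X - C ρ₂) * (X - C ρ₃) ∣ (X ^ m - 1 : L[X])) ∨
    (∃ m, (m = n₁ * p ∨ (p = 2 ∧ m = 12)) ∧ (X - C ρ₁) * (X - C ρ₂) * (X - C ρ₃) ∣ (X ^ m - 1 : L[X])) := by
  have h1 : ρ₁ ≠ 0 := by
    intro h
    rw [h] at hprod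
    simp at hprod
  have h2 : ρ₂ ≠ 0 := by
    intro h
    rw [h] at hprod
    simp at hprod
  have h3 : ρ₃ ≠ 0 := by
    intro h
    rw [h] at hprod
    simp at hprod
  -- doubled root
  have hdouble : ∀ {a b : L}, a ≠ 0 → b ≠ 0 → a ≠ b → φ a = a → φ b = b →
      (X - C a) * (X - C a) * (X - C b) ∣ (X ^ (n₁ * p) - 1 : L[X]) := by
    intro a b ha hb hab ea eb
    rw [← pow_char_sub]
    have e1 : (X - C a) * (X - C b) ∣ (X ^ n₁ - 1 : L[X]) :=
      dvd_two hab (X_sub_dvd (hA a ha ea)) (X_sub_dvd (hA b hb eb))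
    have e2 : ((X - C a) * (X - C b)) ^ p ∣ ((X ^ n₁ - 1 : L[X]) ^ p) := pow_dvd_pow_of_dvd e1 p
    refine Dvd.dvd.trans ?_ e2
    have e3 : ((X - C a) * (X - C b)) ^ 2 ∣ ((X - C a) * (X - C b)) ^ p := pow_dvd_pow _ hp.out.two_le
    refine Dvd.dvd.trans ?_ e3
    exact ⟨X - C b, by ring⟩
  -- the triple root
  have htriple : ∀ {a : L}, a ^ 3 = 1 → φ a = a →
      (∃ m, (m = n₁ * p ∨ (p = 2 ∧ m = 12)) ∧ (X - C a) * (X - C a) * (X - C a) ∣ (X ^ m - 1 : L[X])) := by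
    intro a ha3 ea
    have ha : a ≠ 0 := by
      intro h
      rw [h] at ha3
      simp at ha3
    by_cases hp2 : p = 2
    · refine ⟨12, Or.inr ⟨hp2, rfl⟩, ?_⟩
      have e1 : (X - C a) ∣ (X ^ 3 - 1 : L[X]) := X_sub_dvd ha3
      have e2 : (X ^ 3 - 1 : L[X]) ^ p = X ^ (3 * p) - 1 := pow_char_sub 3
      have e3 : (X ^ (3 * p) - 1 : L[X]) ^ p = X ^ (3 * p * p) - 1 := pow_char_sub (3 * p)
      have e4 : (X ^ 12 - 1 : L[X]) = ((X ^ 3 - 1 : L[X]) ^ p) ^ p := by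
        rw [e2, e3, hp2]
      rw [e4, ← pow_mul, hp2]
      have e5 : (X - C a) ^ (2 * 2) ∣ (X ^ 3 - 1 : L[X]) ^ (2 * 2) := pow_dvd_pow_of_dvd e1 _
      refine Dvd.dvd.trans ?_ e5
      exact ⟨X - C a, by ring⟩
    · refine ⟨n₁ * p, Or.inl rfl, ?_⟩
      rw [← pow_char_sub]
      have e1 : (X - C a) ∣ (X ^ n₁ - 1 : L[X]) := X_sub_dvd (hA a ha ea)
      have e2 : (X - C a) ^ p ∣ (X ^ n₁ - 1 : L[X]) ^ p := pow_dvd_pow_of_dvd e1 p
      refine Dvd.dvd.trans ?_ e2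
      have hp3 : 3 ≤ p := by
        have := hp.out.two_le
        omega
      have e3 : (X - C a) ^ 3 ∣ (X - C a) ^ p := pow_dvd_pow _ hp3
      refine Dvd.dvd.trans ?_ e3
      exact ⟨1, by ring⟩
  -- distinct roots
  have hmain := sym3 hs1 hs2 hs3
  by_cases e12 : ρ₁ = ρ₂
  · subst e12
    by_cases e13 : ρ₁ = ρ₃
    · subst e13
      right
      have ea : φ ρ₁ = ρ₁ := by
        rcases hmain with h | h | h | h | h | h <;> exact h.1
      have h33 : ρ₁ ^ 3 = 1 := by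
        rw [← hprod]
        ring
      exact htriple h33 ea
    · right
      have ea : φ ρ₁ = ρ₁ ∧ φ ρ₃ = ρ₃ := by
        rcases hmain with h | h | h | h | h | h <;> first
          | exact ⟨h.1, h.2.2⟩
          | (exfalso; exact e13 (h.1.symm.trans h.2.1))
          | (exfalso; exact e13 (h.2.1.symm.trans h.1))
          | (exact ⟨h.2.1, h.2.2⟩)
          | (exact ⟨h.1, h.2.2⟩)
      refine ⟨n₁ * p, Or.inl rfl, hdouble h1 h3 e13 ea.1 ea.2⟩
  · by_cases e13 : ρ₁ = ρ₃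
    · subst e13
      right
      have ea : φ ρ₁ = ρ₁ ∧ φ ρ₂ = ρ₂ := by
        rcases hmain with h | h | h | h | h | h <;> first
          | exact ⟨h.1, h.2.1⟩
          | (exfalso; exact e12 (h.1.symm.trans h.2.2 |>.symm ▸ rfl))
          | (exfalso; exact e12 (h.2.2.symm.trans h.1))
          | (exfalso; exact e12 (h.1.symm.trans h.2.2))
          | (exact ⟨h.2.2, h.2.1⟩)
      refine ⟨n₁ * p, Or.inl rfl, ?_⟩
      have := hdouble h1 h2 e12 ea.1 ea.2
      convert this using 1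
      ring
    · by_cases e23 : ρ₂ = ρ₃
      · subst e23
        right
        have ea : φ ρ₂ = ρ₂ ∧ φ ρ₁ = ρ₁ := by
          rcases hmain with h | h | h | h | h | h <;> first
            | exact ⟨h.2.1, h.1⟩
            | exact ⟨h.2.2, h.1⟩
            | (exfalso; exact e12 (h.2.1.symm.trans h.2.2))
            | (exfalso; exact e12 (h.2.2.symm.trans h.2.1))
            | (exfalso; exact e12 (h.2.1.symm.trans h.1))
            | (exfalso; exact e12 (h.2.2.symm.trans h.1))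
            | (exfalso; exact e12 (h.1.symm.trans h.2.1))
            | (exfalso; exact e12 (h.1.symm.trans h.2.2))
        refine ⟨n₁ * p, Or.inl rfl, ?_⟩
        have := hdouble h2 h1 (Ne.symm e12) ea.1 ea.2
        convert this using 1
        ring
      · left
        -- three distinct roots
        have all2 : ∀ m, n₂ = m → ρ₁ ^ m = 1 ∧ ρ₂ ^ m = 1 ∧ ρ₃ ^ m = 1 →
            (X - C ρ₁) * (X - C ρ₂) * (X - C ρ₃) ∣ (X ^ m - 1 : L[X]) := by
          intro m _ h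
          exact dvd_three e12 e13 e23 (X_sub_dvd h.1) (X_sub_dvd h.2.1) (X_sub_dvd h.2.2)
        have fromA : ∀ x, x ≠ 0 → φ x = x → x ^ n₂ = 1 := by
          intro x hx e
          obtain ⟨k, hk⟩ := hd
          rw [hk, pow_mul, hA x hx e, one_pow]
        have fromB : ∀ x, x ≠ 0 → ∀ y, φ x = y → φ y = x → x ^ n₂ = 1 := by
          intro x hx y e1 e2
          apply hB x hx
          rw [e1, e2]
        have fromC : ∀ x y z, x ≠ 0 → x * y * z = 1 → φ x = y → φ y = z → x ^ n₃ = 1 := by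
          intro x y z hx hxyz e1 e2
          apply hC x hx
          rw [e1, e2, hxyz]
        rcases hmain with ⟨e1, e2, e3⟩ | ⟨e1, e2, e3⟩ | ⟨e1, e2, e3⟩ | ⟨e1, e2, e3⟩ | ⟨e1, e2, e3⟩ | ⟨e1, e2, e3⟩
        · exact ⟨n₂, Or.inr rfl, all2 _ rfl ⟨fromA _ h1 e1, fromA _ h2 e2, fromA _ h3 e3⟩⟩
        · exact ⟨n₂, Or.inr rfl, all2 _ rfl ⟨fromA _ h1 e1, fromB _ h2 _ e2 e3, fromB _ h3 _ e3 e2⟩⟩
        · exact ⟨n₂, Or.inr rfl, all2 _ rfl ⟨fromB _ h1 _ e1 e2, fromB _ h2 _ e2 e1, fromA _ h3 e3⟩⟩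
        · refine ⟨n₃, Or.inl rfl, dvd_three e12 e13 e23 (X_sub_dvd ?_) (X_sub_dvd ?_) (X_sub_dvd ?_)⟩
          · exact fromC _ _ _ h1 hprod e1 e2
          · exact fromC _ _ _ h2 (by rw [← hprod]; ring) e2 e3
          · exact fromC _ _ _ h3 (by rw [← hprod]; ring) e3 e1
        · refine ⟨n₃, Or.inl rfl, dvd_three e12 e13 e23 (X_sub_dvd ?_) (X_sub_dvd ?_) (X_sub_dvd ?_)⟩
          · exact fromC _ _ _ h1 (by rw [← hprod]; ring) e1 e3
          · exact fromC _ _ _ h2 (by rw [← hprod]; ring) e2 e1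
          · exact fromC _ _ _ h3 (by rw [← hprod]; ring) e3 e2
        · exact ⟨n₂, Or.inr rfl, all2 _ rfl ⟨fromB _ h1 _ e1 e3, fromA _ h2 e2, fromB _ h3 _ e3 e1⟩⟩

end Three


section Frob

variable {E : Type*} [Field E] {p a : ℕ} [hp : Fact p.Prime] [CharP E p]

theorem exists_roots3 {L : Type*} [Field L] [IsAlgClosed L] (P : L[X]) (hm : P.Monic) (hd : P.natDegree = 3) :
    ∃ u v w : L, P = (X - C u) * (X - C v) * (X - C w) := by
  have hs := IsAlgClosed.splits P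
  have e := hs.eq_prod_roots_of_monic hm
  have hc := hs.natDegree_eq_card_roots
  rw [hd] at hc
  obtain ⟨u, v, w, h⟩ := Multiset.card_eq_three.mp hc.symm
  rw [h] at e
  refine ⟨u, v, w, ?_⟩
  rw [e]
  simp
  ring

theorem exists_roots2 {L : Type*} [Field L] [IsAlgClosed L] (P : L[X]) (hm : P.Monic) (hd : P.natDegree = 2) :
    ∃ u v : L, P = (X - C u) * (X - C v) := by
  have hs := IsAlgClosed.splits P
  have e := hs.eq_prod_roots_of_monic hm
  have hc := hs.natDegree_eq_card_roots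
  rw [hd] at hc
  obtain ⟨u, v, h⟩ := Multiset.card_eq_two.mp hc.symm
  rw [h] at e
  refine ⟨u, v, ?_⟩
  rw [e]
  simp

/-- The cubic with given coefficients. -/
noncomputable def cub {R : Type*} [CommRing R] (c₁ c₂ : R) : R[X] := X ^ 3 - C c₁ * X ^ 2 + C c₂ * X - 1

theorem cub_monic {R : Type*} [CommRing R] [Nontrivial R] (c₁ c₂ : R) : (cub c₁ c₂).Monic := by
  rw [cub]
  monicity!

theorem cub_natDegree {R : Type*} [CommRing R] [Nontrivial R] (c₁ c₂ : R) : (cub c₁ c₂).natDegree = 3 := by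
  rw [cub]
  compute_degree!

theorem cub_map {R S : Type*} [CommRing R] [CommRing S] (f : R →+* S) (c₁ c₂ : R) :
    (cub c₁ c₂).map f = cub (f c₁) (f c₂) := by
  simp [cub]

theorem coef3 {L : Type*} [Field L] (A B D : L) :
    (X ^ 3 - C A * X ^ 2 + C B * X - C D : L[X]).coeff 2 = -A ∧
    (X ^ 3 - C A * X ^ 2 + C B * X - C D : L[X]).coeff 1 = B ∧
    (X ^ 3 - C A * X ^ 2 + C B * X - C D : L[X]).coeff 0 = -D := by
  refine ⟨?_, ?_, ?_⟩ <;> simp [coeff_X, coeff_C]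

theorem coef2 {L : Type*} [Field L] (A D : L) :
    (X ^ 2 - C A * X + C D : L[X]).coeff 1 = -A ∧ (X ^ 2 - C A * X + C D : L[X]).coeff 0 = D := by
  refine ⟨?_, ?_⟩ <;> simp [coeff_X, coeff_C]

theorem cub_coeffs {L : Type*} [Field L] {c₁ c₂ u v w : L} (h : cub c₁ c₂ = (X - C u) * (X - C v) * (X - C w)) :
    u + v + w = c₁ ∧ u * v + v * w + w * u = c₂ ∧ u * v * w = 1 := by
  have e : (X - C u) * (X - C v) * (X - C w) =
      X ^ 3 - C (u + v + w) * X ^ 2 + C (u * v + v * w + w * u) * X - C (u * v * w) := by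
    simp only [C_add, C_mul]
    ring
  have e' : cub c₁ c₂ = X ^ 3 - C c₁ * X ^ 2 + C c₂ * X - C 1 := by
    simp [cub]
  rw [e, e'] at h
  obtain ⟨a2, a1, a0⟩ := coef3 c₁ c₂ (1 : L)
  obtain ⟨b2, b1, b0⟩ := coef3 (u + v + w) (u * v + v * w + w * u) (u * v * w)
  rw [h] at a2 a1 a0
  refine ⟨by linear_combination b2 - a2, by linear_combination a1 - b1, by linear_combination b0 - a0⟩

theorem frob_eq (L : Type*) [Field L] [CharP L p] (x : L) : iterateFrobenius L p a x = x ^ (p ^ a) :=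
  iterateFrobenius_def p a x

/-- The split case. -/
theorem cub_plus (ha : 1 ≤ a) {c₁ c₂ : E} (h1 : c₁ ^ (p ^ a) = c₁) (h2 : c₂ ^ (p ^ a) = c₂) :
    ∃ m, (m = (p ^ a) ^ 2 + p ^ a + 1 ∨ m = (p ^ a) ^ 2 - 1 ∨ m = (p ^ a - 1) * p ∨ (p = 2 ∧ m = 12)) ∧
      cub c₁ c₂ ∣ (X ^ m - 1 : E[X]) := by
  set q := p ^ a with hq
  have hq2 : 2 ≤ q := by
    calc 2 ≤ p := hp.out.two_le
      _ = p ^ 1 := (pow_one p).symm
      _ ≤ p ^ a := Nat.pow_le_pow_right hp.out.pos ha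
  let L := AlgebraicClosure E
  let ι := algebraMap E L
  haveI : CharP L p := charP_of_injective_algebraMap (algebraMap E L).injective p
  obtain ⟨u, v, w, huvw⟩ := exists_roots3 ((cub c₁ c₂).map ι) ((cub_monic c₁ c₂).map ι)
    (by rw [natDegree_map, cub_natDegree])
  rw [cub_map] at huvw
  obtain ⟨s1, s2, s3⟩ := cub_coeffs huvw
  let σ := iterateFrobenius L p a
  have hσ : ∀ x, σ x = x ^ q := frob_eq L
  have hι1 : σ (ι c₁) = ι c₁ := by rw [hσ, ← map_pow, h1]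
  have hι2 : σ (ι c₂) = ι c₂ := by rw [hσ, ← map_pow, h2]
  have hcore := three_core (p := p) (φ := fun x : L => σ x) (n₁ := q - 1) (n₂ := q ^ 2 - 1) (n₃ := q ^ 2 + q + 1) (ρ₁ := u)
    (ρ₂ := v) (ρ₃ := w) s3
    (by simp only [← map_add]; rw [s1, hι1])
    (by simp only [← map_add, ← map_mul]; rw [s2, hι2])
    (by simp only [← map_mul]; rw [s3, map_one])
    (by
      intro x hx e
      simp only [hσ] at e
      have : x ^ (q - 1) * x = x := by
        rw [← pow_succ, Nat.sub_add_cancel (by omega), e]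
      exact mul_right_cancel₀ hx (by rw [this, one_mul]))
    (by
      intro x hx e
      simp only [hσ] at e
      have h3 : x ^ (q ^ 2 - 1) * x = x := by
        rw [← pow_succ, Nat.sub_add_cancel (Nat.one_le_pow _ _ (by omega)), sq, pow_mul, e]
      exact mul_right_cancel₀ hx (by rw [h3, one_mul]))
    (by
      intro x hx e
      simp only [hσ] at e
      rw [← pow_mul, ← pow_succ', ← pow_add] at e
      rw [← e]
      congr 1
      ring)
    (by
      refine ⟨q + 1, ?_⟩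
      zify [show 1 ≤ q by omega, show 1 ≤ q ^ 2 from Nat.one_le_pow _ _ (by omega)]
      ring)
  have hmap : ∀ m, (X - C u) * (X - C v) * (X - C w) ∣ (X ^ m - 1 : L[X]) → cub c₁ c₂ ∣ (X ^ m - 1 : E[X]) := by
    intro m hm
    rw [← Polynomial.map_dvd_map' ι]
    rw [cub_map, huvw]
    simpa using hm
  rcases hcore with ⟨m, hm, hd⟩ | ⟨m, hm, hd⟩
  · refine ⟨m, ?_, hmap m hd⟩
    rcases hm with h | h
    · exact Or.inl h
    · exact Or.inr (Or.inl h)
  · refine ⟨m, ?_, hmap m hd⟩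
    rcases hm with h | h
    · exact Or.inr (Or.inr (Or.inl h))
    · exact Or.inr (Or.inr (Or.inr h))

/-- The nonsplit case. -/
theorem cub_minus (ha : 1 ≤ a) {c₁ c₂ : E} (h1 : c₁ ^ (p ^ a) = c₂) (h2 : c₂ ^ (p ^ a) = c₁) :
    ∃ m, (m = (p ^ a) ^ 2 - p ^ a + 1 ∨ m = (p ^ a) ^ 2 - 1 ∨ m = (p ^ a + 1) * p ∨ (p = 2 ∧ m = 12)) ∧
      cub c₁ c₂ ∣ (X ^ m - 1 : E[X]) := by
  set q := p ^ a with hq
  have hq2 : 2 ≤ q := by
    calc 2 ≤ p := hp.out.two_le
      _ = p ^ 1 := (pow_one p).symm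
      _ ≤ p ^ a := Nat.pow_le_pow_right hp.out.pos ha
  let L := AlgebraicClosure E
  let ι := algebraMap E L
  haveI : CharP L p := charP_of_injective_algebraMap (algebraMap E L).injective p
  obtain ⟨u, v, w, huvw⟩ := exists_roots3 ((cub c₁ c₂).map ι) ((cub_monic c₁ c₂).map ι)
    (by rw [natDegree_map, cub_natDegree])
  rw [cub_map] at huvw
  obtain ⟨s1, s2, s3⟩ := cub_coeffs huvw
  let σ := iterateFrobenius L p a
  have hσ : ∀ x, σ x = x ^ q := frob_eq L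
  have hι1 : σ (ι c₁) = ι c₂ := by rw [hσ, ← map_pow, h1]
  have hι2 : σ (ι c₂) = ι c₁ := by rw [hσ, ← map_pow, h2]
  have hu : u ≠ 0 := by
    intro h
    rw [h] at s3
    simp at s3
  have hv : v ≠ 0 := by
    intro h
    rw [h] at s3
    simp at s3
  have hw : w ≠ 0 := by
    intro h
    rw [h] at s3
    simp at s3
  have s3' : σ u * σ v * σ w = 1 := by
    simp only [← map_mul]
    rw [s3, map_one]
  have s1' : σ u + σ v + σ w = ι c₂ := by
    simp only [← map_add]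
    rw [s1, hι1]
  have s2' : σ u * σ v + σ v * σ w + σ w * σ u = ι c₁ := by
    simp only [← map_add, ← map_mul]
    rw [s2, hι2]
  have hsu : σ u ≠ 0 := by
    intro h
    rw [h] at s3'
    simp at s3'
  have hsv : σ v ≠ 0 := by
    intro h
    rw [h] at s3'
    simp at s3'
  have hsw : σ w ≠ 0 := by
    intro h
    rw [h] at s3'
    simp at s3'
  have inv_u : (σ u)⁻¹ = σ v * σ w := inv_eq_of_mul_eq_one_right (by linear_combination s3')
  have inv_v : (σ v)⁻¹ = σ u * σ w := inv_eq_of_mul_eq_one_right (by linear_combination s3')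
  have inv_w : (σ w)⁻¹ = σ u * σ v := inv_eq_of_mul_eq_one_right (by linear_combination s3')
  have hcore := three_core (p := p) (φ := fun x : L => (σ x)⁻¹) (n₁ := q + 1) (n₂ := q ^ 2 - 1) (n₃ := q ^ 2 - q + 1)
    (ρ₁ := u) (ρ₂ := v) (ρ₃ := w) s3
    (by
      show (σ u)⁻¹ + (σ v)⁻¹ + (σ w)⁻¹ = u + v + w
      rw [inv_u, inv_v, inv_w, s1, ← s2']
      ring)
    (by
      show (σ u)⁻¹ * (σ v)⁻¹ + (σ v)⁻¹ * (σ w)⁻¹ + (σ w)⁻¹ * (σ u)⁻¹ = u * v + v * w + w * u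
      rw [inv_u, inv_v, inv_w, s2, ← s1']
      linear_combination (σ u + σ v + σ w) * s3')
    (by
      show (σ u)⁻¹ * (σ v)⁻¹ * (σ w)⁻¹ = u * v * w
      rw [inv_u, inv_v, inv_w, s3]
      linear_combination (σ u * σ v * σ w + 1) * s3')
    (by
      intro x hx e
      simp only [hσ] at e
      have hxq : x ^ q ≠ 0 := pow_ne_zero _ hx
      have : x ^ q * x = 1 := by
        calc x ^ q * x = x ^ q * (x ^ q)⁻¹ := by rw [e]
          _ = 1 := mul_inv_cancel₀ hxq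
      rw [pow_succ]
      exact this)
    (by
      intro x hx e
      simp only [hσ] at e
      rw [inv_pow, inv_inv, ← pow_mul] at e
      have h3 : x ^ (q ^ 2 - 1) * x = x := by
        rw [← pow_succ, Nat.sub_add_cancel (Nat.one_le_pow _ _ (by omega)), sq]
        exact e
      exact mul_right_cancel₀ hx (by rw [h3, one_mul]))
    (by
      intro x hx e
      simp only [hσ] at e
      rw [inv_pow, inv_inv, ← pow_mul] at e
      have hxq : x ^ q ≠ 0 := pow_ne_zero _ hx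
      have hle : q ≤ q ^ 2 := by nlinarith
      have h5 : (x ^ q)⁻¹ * x ^ q = 1 := inv_mul_cancel₀ hxq
      have e' : x * x ^ (q * q) = x ^ q := by
        linear_combination (x ^ q) * e - (x * x ^ (q * q)) * h5
      have h4 : x ^ (q ^ 2 - q + 1) * x ^ q = x ^ q := by
        rw [← pow_add, show q ^ 2 - q + 1 + q = q ^ 2 + 1 by omega, pow_succ, sq, mul_comm]
        exact e'
      exact mul_right_cancel₀ hxq (by rw [h4, one_mul]))
    (by
      refine ⟨q - 1, ?_⟩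
      zify [show 1 ≤ q by omega, show 1 ≤ q ^ 2 from Nat.one_le_pow _ _ (by omega)]
      ring)
  have hmap : ∀ m, (X - C u) * (X - C v) * (X - C w) ∣ (X ^ m - 1 : L[X]) → cub c₁ c₂ ∣ (X ^ m - 1 : E[X]) := by
    intro m hm
    rw [← Polynomial.map_dvd_map' ι]
    rw [cub_map, huvw]
    simpa using hm
  rcases hcore with ⟨m, hm, hd⟩ | ⟨m, hm, hd⟩
  · refine ⟨m, ?_, hmap m hd⟩
    rcases hm with h | h
    · exact Or.inl h
    · exact Or.inr (Or.inl h)
  · refine ⟨m, ?_, hmap m hd⟩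
    rcases hm with h | h
    · exact Or.inr (Or.inr (Or.inl h))
    · exact Or.inr (Or.inr (Or.inr h))

/-- The quadratic with constant term one. -/
theorem quad_cases (ha : 1 ≤ a) {c : E} (hc : c ^ (p ^ a) = c) :
    c = 2 ∨ c = -2 ∨ ∃ n, (n = p ^ a - 1 ∨ n = p ^ a + 1) ∧
      (X - 1) * (X ^ 2 - C c * X + 1) ∣ (X ^ n - 1 : E[X]) := by
  set q := p ^ a with hq
  have hq2 : 2 ≤ q := by
    calc 2 ≤ p := hp.out.two_le
      _ = p ^ 1 := (pow_one p).symm
      _ ≤ p ^ a := Nat.pow_le_pow_right hp.out.pos ha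
  let L := AlgebraicClosure E
  let ι := algebraMap E L
  haveI : CharP L p := charP_of_injective_algebraMap (algebraMap E L).injective p
  have hmon : (X ^ 2 - C c * X + 1 : E[X]).Monic := by monicity!
  have hdeg : (X ^ 2 - C c * X + 1 : E[X]).natDegree = 2 := by compute_degree!
  obtain ⟨u, v, huv⟩ := exists_roots2 ((X ^ 2 - C c * X + 1 : E[X]).map ι) (hmon.map ι)
    (by rw [natDegree_map, hdeg])
  have e1 : (X ^ 2 - C c * X + 1 : E[X]).map ι = X ^ 2 - C (ι c) * X + C 1 := by simp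
  rw [e1] at huv
  have e2 : (X - C u) * (X - C v) = X ^ 2 - C (u + v) * X + C (u * v) := by
    simp only [C_add, C_mul]
    ring
  have huv2 := huv
  rw [e2] at huv2
  obtain ⟨a1, a0⟩ := coef2 (ι c) (1 : L)
  obtain ⟨b1, b0⟩ := coef2 (u + v) (u * v)
  rw [huv2] at a1 a0
  have s2 : ι c = u + v := by linear_combination a1 - b1
  have s0 : u * v = 1 := by linear_combination a0 - b0
  have hu : u ≠ 0 := by
    intro h
    rw [h] at s0
    simp at s0
  have hinj := (algebraMap E L).injective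
  by_cases h1 : u = 1
  · left
    apply hinj
    have : v = 1 := by rw [h1, one_mul] at s0; exact s0
    change ι c = ι 2
    rw [s2, h1, this, map_ofNat]
    norm_num
  by_cases h2 : u = -1
  · right
    left
    apply hinj
    have : v = -1 := by rw [h2] at s0; linear_combination -s0
    change ι c = ι (-2)
    rw [s2, h2, this, map_neg, map_ofNat]
    norm_num
  right
  right
  have hv : v = u⁻¹ := eq_inv_of_mul_eq_one_right s0
  have huv' : u ≠ v := by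
    intro h
    rw [← h] at s0
    have : (u - 1) * (u + 1) = 0 := by linear_combination s0
    rcases mul_eq_zero.mp this with h3 | h3
    · exact h1 (sub_eq_zero.mp h3)
    · exact h2 (by linear_combination h3)
  have hv1 : v ≠ 1 := by
    intro h
    apply h1
    rw [h, mul_one] at s0
    exact s0
  let σ := iterateFrobenius L p a
  have hσ : ∀ x, σ x = x ^ q := frob_eq L
  have hιc : σ (ι c) = ι c := by rw [hσ, ← map_pow, hc]
  have e3 : (σ u - u) * (σ u - v) = 0 := by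
    have e4 : σ u * σ v = 1 := by
      rw [← map_mul, s0, map_one]
    have e5 : σ u + σ v = ι c := by
      rw [← map_add, ← s2, hιc]
    have h_a : u + v = σ u + σ v := by rw [e5, s2]
    have h_b : u * v = σ u * σ v := by rw [e4, s0]
    linear_combination -σ u * h_a + h_b
  have hmap : ∀ m, (X - C 1) * (X - C u) * (X - C v) ∣ (X ^ m - 1 : L[X]) →
      (X - 1) * (X ^ 2 - C c * X + 1) ∣ (X ^ m - 1 : E[X]) := by
    intro m hm
    rw [← Polynomial.map_dvd_map' ι]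
    have e7 : ((X - 1) * (X ^ 2 - C c * X + 1) : E[X]).map ι = (X - C 1) * (X - C u) * (X - C v) := by
      have e8 : (X ^ 2 - C c * X + 1 : E[X]).map ι = (X - C u) * (X - C v) := by
        rw [← huv]
        simp
      rw [Polynomial.map_mul, e8, mul_assoc]
      simp
    rw [e7]
    simpa using hm
  have hdv : ∀ n, u ^ n = 1 → (X - 1) * (X ^ 2 - C c * X + 1) ∣ (X ^ n - 1 : E[X]) := by
    intro n hn
    apply hmap
    refine dvd_three (Ne.symm h1) (Ne.symm hv1) huv' (X_sub_dvd (one_pow n)) (X_sub_dvd hn) (X_sub_dvd ?_)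
    rw [hv, inv_pow, hn, inv_one]
  rcases mul_eq_zero.mp e3 with h3 | h3
  · refine ⟨q - 1, Or.inl rfl, hdv _ ?_⟩
    have h4 : u ^ q = u := by
      rw [← hσ]
      exact sub_eq_zero.mp h3
    have : u ^ (q - 1) * u = u := by
      rw [← pow_succ, Nat.sub_add_cancel (by omega), h4]
    exact mul_right_cancel₀ hu (by rw [this, one_mul])
  · refine ⟨q + 1, Or.inr rfl, hdv _ ?_⟩
    have h4 : u ^ q = v := by
      rw [← hσ]
      exact sub_eq_zero.mp h3
    rw [pow_succ, h4, mul_comm]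
    exact s0

end Frob

end Cfsg.Agent.Lib.G2Oct.Ord
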