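import Mathlib
import Cfsg.Agent.Lib.G2Oct.Stab
import Cfsg.Agent.Lib.G2Oct.Ord

/-!
Base change of automorphisms of the split octonions, and automorphisms with a fixed element generating a
quadratic etale subalgebra: their orders.
-/

set_option autoImplicit false
set_option linter.unusedSectionVars false
set_option linter.unusedSimpArgs false
set_option linter.unusedVariables false

namespace Cfsg.Agent.Lib.G2Oct.Base

open Cfsg.Lie Matrix Cfsg.Agent.Lib.G2Oct.Zorn Cfsg.Agent.Lib.G2Oct.Stab Cfsg.Agent.Lib.G2Oct.Ord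

section Map

variable {F E : Type*} [Field F] [Field E] (ι : F →+* E)

/-- The image of a group element. -/
noncomputable def mapG (g : GL (Fin 8) F) : GL (Fin 8) E := Matrix.GeneralLinearGroup.map ι g

theorem mapG_val (g : GL (Fin 8) F) : ((mapG ι g : GL (Fin 8) E) : Matrix (Fin 8) (Fin 8) E) =
    (g : Matrix (Fin 8) (Fin 8) F).map ι := rfl

theorem act_map (g : GL (Fin 8) F) (x : O F) : act (mapG ι g) (ι ∘ x) = ι ∘ act g x := by
  funext i
  simp only [act, mapG_val, Function.comp]
  exact (RingHom.map_mulVec ι _ x i).symm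

theorem zorn_map (x y : O F) : zornMul (ι ∘ x) (ι ∘ y) = ι ∘ zornMul x y := by
  funext i
  fin_cases i <;> simp [zm]

theorem zm_add_left (x y z : O E) : zornMul (x + y) z = zornMul x z + zornMul y z := by
  funext i
  fin_cases i <;> simp [zm] <;> ring

theorem zm_add_right (x y z : O E) : zornMul x (y + z) = zornMul x y + zornMul x z := by
  funext i
  fin_cases i <;> simp [zm] <;> ring

theorem zm_smul_left (c : E) (x y : O E) : zornMul (c • x) y = c • zornMul x y := by
  funext i
  fin_cases i <;> simp [zm] <;> ring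

theorem zm_smul_right (c : E) (x y : O E) : zornMul x (c • y) = c • zornMul x y := by
  funext i
  fin_cases i <;> simp [zm] <;> ring

/-- The algebra product as a bilinear map. -/
def zB2 : O E →ₗ[E] O E →ₗ[E] O E :=
  LinearMap.mk₂ E zornMul zm_add_left zm_smul_left zm_add_right zm_smul_right

theorem mapG_mem {g : GL (Fin 8) F} (hg : g ∈ G2 F) : mapG ι g ∈ G2 E := by
  have key : ∀ i j : Fin 8, act (mapG ι g) (zornMul (Pi.single i 1) (Pi.single j 1)) =
      zornMul (act (mapG ι g) (Pi.single i 1)) (act (mapG ι g) (Pi.single j 1)) := by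
    intro i j
    have e : ∀ k : Fin 8, (Pi.single k (1 : E) : O E) = ι ∘ (Pi.single k (1 : F) : O F) := by
      intro k
      funext l
      by_cases h : l = k
      · subst h
        simp
      · simp [Pi.single_apply, h]
    rw [e i, e j, zorn_map, act_map, act_map, act_map, zorn_map, act_hom hg]
  let M : O E →ₗ[E] O E := (mapG ι g : Matrix (Fin 8) (Fin 8) E).mulVecLin
  have hM : ∀ x, M x = act (mapG ι g) x := fun x => rfl
  have h1 : (zB2 (E := E)).compr₂ M = (zB2 (E := E)).compl₁₂ M M := by
    apply (Pi.basisFun E (Fin 8)).ext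
    intro i
    apply (Pi.basisFun E (Fin 8)).ext
    intro j
    simp only [LinearMap.compr₂_apply, LinearMap.compl₁₂_apply, Pi.basisFun_apply]
    exact key i j
  intro x y
  have := congrFun (congrArg DFunLike.coe (congrFun (congrArg DFunLike.coe h1) x)) y
  exact this

theorem mapG_pow (g : GL (Fin 8) F) (n : ℕ) : mapG ι g ^ n = mapG ι (g ^ n) := by
  simp [mapG]

theorem mapG_inj {g g' : GL (Fin 8) F} (h : mapG ι g = mapG ι g') : g = g' :=
  Units.ext (Matrix.map_injective ι.injective (congrArg Units.val h))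

theorem trace_map (M : Matrix (Fin 8) (Fin 8) F) : (M.map ι).trace = ι M.trace := by
  simp [Matrix.trace, map_sum]

theorem Lm_map (x : O F) : Lm (ι ∘ x) = (Lm x).map ι := by
  ext i j
  simp only [Lm, Matrix.of_apply, Matrix.map_apply]
  have e : (Pi.single j (1 : E) : O E) = ι ∘ (Pi.single j (1 : F) : O F) := by
    funext l
    by_cases h : l = j
    · subst h
      simp
    · simp [Pi.single_apply, h]
  rw [e, zorn_map]
  rfl

theorem T8_map (x : O F) : T8 (ι ∘ x) = ι (T8 x) := by
  simp [T8]

theorem N8_map (x : O F) : N8 (ι ∘ x) = ι (N8 x) := by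
  simp [N8]

end Map

section Core

variable {E : Type*} [Field E]

theorem T8_smul (c : E) (x : O E) : T8 (c • x) = c * T8 x := by
  simp [T8]
  ring

theorem N8_smul (c : E) (x : O E) : N8 (c • x) = c ^ 2 * N8 x := by
  simp [N8]
  ring

theorem T8_sc_sub (x : O E) (c : E) : T8 (x - c • one8) = T8 x - 2 * c := by
  simp [T8, one8]
  ring

theorem N8_sc_sub (x : O E) (c : E) : N8 (x - c • one8) = N8 x - c * T8 x + c ^ 2 := by
  simp [T8, N8, one8]
  ring

/-- The structure of an automorphism with a fixed element generating a quadratic etale algebra. -/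
theorem core_E {g : GL (Fin 8) E} (hg : g ∈ G2 E) {x : O E} (hx : act g x = x) {r r' : E} (hne : r ≠ r')
    (hT : T8 x = r + r') (hN : N8 x = r * r') :
    ∃ A : Matrix (Fin 3) (Fin 3) E, A.det = 1 ∧ (∀ n, A ^ n = 1 → g ^ n = 1) ∧
      (g : Matrix (Fin 8) (Fin 8) E).trace = 2 + A.trace + (cofM A).trace ∧
      (Lm x * (g : Matrix (Fin 8) (Fin 8) E)).trace = r * (1 + A.trace) + r' * (1 + (cofM A).trace) := by
  have hd : r - r' ≠ 0 := sub_ne_zero.mpr hne
  obtain ⟨e, he⟩ : ∃ e : O E, e = (r - r')⁻¹ • (x - r' • one8) := ⟨_, rfl⟩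
  have hTe : T8 e = 1 := by
    rw [he, T8_smul, T8_sc_sub, hT]
    field_simp
    ring
  have hNe : N8 e = 0 := by
    rw [he, N8_smul, N8_sc_sub, hT, hN]
    ring
  have hge : act g e = e := by
    rw [he, act_smul, act_sub, act_smul, hx, act_one8 hg]
  obtain ⟨h, hh, hhe⟩ := exists_move_idem hTe hNe
  have hg' : h * g * h⁻¹ ∈ G2 E := Subgroup.mul_mem _ (Subgroup.mul_mem _ hh hg) (Subgroup.inv_mem _ hh)
  have he0 : act (h * g * h⁻¹) e0 = e0 := by
    rw [act_mul, act_mul, ← hhe, act_inv_act, hge]
  obtain ⟨A, hdet, hAC, hA⟩ := stab_e0 hg' he0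
  have hxe : x = (r - r') • e + r' • one8 := by
    rw [he, smul_smul, mul_inv_cancel₀ hd, one_smul, sub_add_cancel]
  have hhx : act h x = sc r r' := by
    rw [hxe, act_add, act_smul, act_smul, hhe, act_one8 hh]
    funext i
    fin_cases i <;> simp [e0, one8, sc]
  refine ⟨A, hdet, ?_, ?_, ?_⟩
  · intro n hn
    have h1 := pow_eq_one_of hAC hA hn
    have h2 : (h * g * h⁻¹) ^ n = h * g ^ n * h⁻¹ := by
      have := conj_pow (a := h) (b := g) (i := n)
      exact this
    rw [h2] at h1
    have h3 : g ^ n = h⁻¹ * (h * g ^ n * h⁻¹) * h := by group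
    rw [h3, h1]
    group
  · rw [← trace_conj h g, trace_bk hA]
  · rw [← trace_Lm_conj hh x, hhx, trace_Lm_bk hA]

end Core

end Cfsg.Agent.Lib.G2Oct.Base
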