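import Mathlib
import Cfsg.Agent.Lib.G2Oct.Base
import Cfsg.Agent.Lib.ChevTori.Final

/-!
Automorphisms of the split octonions over a finite field fixing an element which generates a quadratic etale
subalgebra: their orders divide one of the listed numbers.
-/

set_option autoImplicit false
set_option linter.unusedSectionVars false
set_option linter.unusedSimpArgs false
set_option linter.unusedVariables false

namespace Cfsg.Agent.Lib.G2Oct.BranchA

open Cfsg.Lie Matrix Polynomial Cfsg.Agent.Lib.G2Oct.Zorn Cfsg.Agent.Lib.G2Oct.Stab Cfsg.Agent.Lib.G2Oct.Ord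
  Cfsg.Agent.Lib.G2Oct.Base

/-- The numbers of the list attached to semisimple centralizers. -/
def Good (p a m : ℕ) : Prop :=
  m = (p ^ a) ^ 2 + p ^ a + 1 ∨ m = (p ^ a) ^ 2 - p ^ a + 1 ∨ m = (p ^ a) ^ 2 - 1 ∨ m = (p ^ a - 1) * p ∨
    m = (p ^ a + 1) * p ∨ (p = 2 ∧ m = 12)

theorem pow_of_cub {E : Type*} [Field E] {A : Matrix (Fin 3) (Fin 3) E} (hdet : A.det = 1) {m : ℕ}
    (h : cub A.trace (cofM A).trace ∣ (X ^ m - 1 : E[X])) : A ^ m = 1 := by
  have h0 : aeval A (cub A.trace (cofM A).trace) = 0 := by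
    have := cubic_eq A hdet
    simpa [cub, map_sub, map_add, map_mul, aeval_X, aeval_C, Algebra.algebraMap_eq_smul_one, smul_mul_assoc] using this
  obtain ⟨k, hk⟩ := h
  have h1 : aeval A (X ^ m - 1 : E[X]) = 0 := by rw [hk, map_mul, h0, zero_mul]
  simpa [sub_eq_zero] using h1

variable {F : Type*} [Field F] [Finite F] {p a : ℕ} [Fact p.Prime]

theorem pow_natCard' {K : Type*} [Field K] [Finite K] (c : K) : c ^ Nat.card K = c := by
  haveI := Fintype.ofFinite K
  rw [Nat.card_eq_fintype_card]
  exact FiniteField.pow_card c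

/-- Split case. -/
theorem split_case [CharP F p] (hF : Nat.card F = p ^ a) (ha : 1 ≤ a) {g : GL (Fin 8) F} (hg : g ∈ G2 F) {x : O F}
    (hx : act g x = x) {r r' : F} (hne : r ≠ r') (hT : T8 x = r + r') (hN : N8 x = r * r') :
    ∃ m, Good p a m ∧ g ^ m = 1 := by
  obtain ⟨A, hdet, hpow, -, -⟩ := core_E hg hx hne hT hN
  have hfix : ∀ c : F, c ^ (p ^ a) = c := by
    intro c
    rw [← hF]
    exact pow_natCard' c
  obtain ⟨m, hm, hd⟩ := cub_plus (p := p) (a := a) ha (hfix A.trace) (hfix (cofM A).trace)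
  refine ⟨m, ?_, hpow m (pow_of_cub hdet hd)⟩
  unfold Good
  rcases hm with h | h | h | h
  · exact Or.inl h
  · exact Or.inr (Or.inr (Or.inl h))
  · exact Or.inr (Or.inr (Or.inr (Or.inl h)))
  · exact Or.inr (Or.inr (Or.inr (Or.inr (Or.inr h))))

/-- Quadratic extension case. -/
theorem nonsplit_case {E : Type*} [Field E] [Finite E] [Algebra F E] [CharP F p] [CharP E p]
    (hF : Nat.card F = p ^ a) (ha : 1 ≤ a) (hE : ∀ c : E, (c ^ (p ^ a)) ^ (p ^ a) = c) {g : GL (Fin 8) F} (hg : g ∈ G2 F) {x : O F}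
    (hx : act g x = x) {r r' : E} (hne : r ≠ r') (hT : algebraMap F E (T8 x) = r + r')
    (hN : algebraMap F E (N8 x) = r * r') (hσ : r ^ (p ^ a) = r') :
    ∃ m, Good p a m ∧ g ^ m = 1 := by
  let ι : F →+* E := algebraMap F E
  have hq : ∀ c : F, (ι c) ^ (p ^ a) = ι c := by
    intro c
    rw [← map_pow, ← hF, pow_natCard']
  haveI : Fact (Nat.Prime p) := inferInstance
  let σ : E →+* E := iterateFrobenius E p a
  have hσa : ∀ c, σ c = c ^ (p ^ a) := fun c => frob_eq (p := p) (a := a) E c
  have hr' : σ r' = r := by rw [hσa, ← hσ, hE]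
  have hr : σ r = r' := by rw [hσa, hσ]
  have hgE : mapG ι g ∈ G2 E := mapG_mem ι hg
  have hxE : act (mapG ι g) (ι ∘ x) = ι ∘ x := by rw [act_map, hx]
  obtain ⟨A, hdet, hpow, htr, hLtr⟩ := core_E hgE hxE hne (by rw [T8_map]; exact hT) (by rw [N8_map]; exact hN)
  have htr1 : ι (g : Matrix (Fin 8) (Fin 8) F).trace = 2 + A.trace + (cofM A).trace := by
    rw [← htr, mapG_val, Base.trace_map]
  have htr2 : ι (Lm x * (g : Matrix (Fin 8) (Fin 8) F)).trace =
      r * (1 + A.trace) + r' * (1 + (cofM A).trace) := by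
    rw [← hLtr, Lm_map, mapG_val, ← Matrix.map_mul, Base.trace_map]
  set c₁ := A.trace
  set c₂ := (cofM A).trace
  have e1 : σ (2 + c₁ + c₂) = 2 + c₁ + c₂ := by
    rw [← htr1, hσa, hq]
  have e2 : σ (r * (1 + c₁) + r' * (1 + c₂)) = r * (1 + c₁) + r' * (1 + c₂) := by
    rw [← htr2, hσa, hq]
  simp only [map_add, map_mul, map_one, map_ofNat, hr, hr'] at e1 e2
  have hd : r' - r ≠ 0 := sub_ne_zero.mpr hne.symm
  have e3 : (r' - r) * (σ c₁ - c₂) = 0 := by
    linear_combination e2 - r * e1 
  have h1 : σ c₁ = c₂ := by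
    have := (mul_eq_zero.mp e3).resolve_left hd
    exact sub_eq_zero.mp this
  have h2 : σ c₂ = c₁ := by
    linear_combination e1 - h1
  obtain ⟨m, hm, hd⟩ := cub_minus (p := p) (a := a) ha (c₁ := c₁) (c₂ := c₂) (by rw [← hσa, h1]) (by rw [← hσa, h2])
  have hA := pow_of_cub hdet hd
  have hgm := hpow m hA
  refine ⟨m, ?_, ?_⟩
  · unfold Good
    rcases hm with h | h | h | h
    · exact Or.inr (Or.inl h)
    · exact Or.inr (Or.inr (Or.inl h))
    · exact Or.inr (Or.inr (Or.inr (Or.inr (Or.inl h))))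
    · exact Or.inr (Or.inr (Or.inr (Or.inr (Or.inr h))))
  · rw [mapG_pow] at hgm
    apply mapG_inj ι
    rw [hgm]
    simp [mapG]

/-- An automorphism fixing an element generating a quadratic etale subalgebra. -/
theorem branchA [CharP F p] (hF : Nat.card F = p ^ a) (ha : 1 ≤ a) {g : GL (Fin 8) F} (hg : g ∈ G2 F) {x : O F}
    (hx : act g x = x) (hdisc : T8 x ^ 2 - 4 * N8 x ≠ 0) :
    ∃ m, Good p a m ∧ g ^ m = 1 := by
  classical
  by_cases hroot : ∃ r : F, r ^ 2 - T8 x * r + N8 x = 0
  · obtain ⟨r, hr⟩ := hroot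
    refine split_case hF ha hg hx (r := r) (r' := T8 x - r) ?_ (by ring) (by linear_combination hr)
    intro h
    apply hdisc
    have e : T8 x = 2 * r := by linear_combination -h
    have : N8 x = r ^ 2 := by
      rw [e] at hr
      linear_combination hr
    rw [e, this]
    ring
  · let f : F[X] := X ^ 2 - C (T8 x) * X + C (N8 x)
    have hfm : f.natDegree = 2 := by
      simp only [f]
      compute_degree!
    have hfr : ∀ c : F, ¬ f.IsRoot c := by
      intro c hc
      apply hroot
      refine ⟨c, ?_⟩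
      simpa [f, IsRoot.def] using hc
    have hirr : Irreducible f :=
      Polynomial.irreducible_of_degree_le_three_of_not_isRoot (by rw [hfm]; simp) hfr
    haveI : Fact (Irreducible f) := ⟨hirr⟩
    have hf0 : f ≠ 0 := hirr.ne_zero
    haveI : Module.Finite F (AdjoinRoot f) := (AdjoinRoot.powerBasis hf0).finite
    haveI : Finite (AdjoinRoot f) := Module.finite_of_finite F
    have hfin : Module.finrank F (AdjoinRoot f) = 2 := by
      rw [(AdjoinRoot.powerBasis hf0).finrank, AdjoinRoot.powerBasis_dim, hfm]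
    have hcard : Nat.card (AdjoinRoot f) = (p ^ a) ^ 2 := by
      rw [Module.natCard_eq_pow_finrank (K := F) (V := AdjoinRoot f), hF, hfin]
    haveI : CharP (AdjoinRoot f) p := charP_of_injective_algebraMap (algebraMap F (AdjoinRoot f)).injective p
    let r : AdjoinRoot f := AdjoinRoot.root f
    let ι := algebraMap F (AdjoinRoot f)
    have hrr : r ^ 2 - ι (T8 x) * r + ι (N8 x) = 0 := by
      have := AdjoinRoot.eval₂_root f
      simp only [f, eval₂_add, eval₂_sub, eval₂_mul, eval₂_pow, eval₂_C, eval₂_X] at this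
      exact this
    have hne : r ≠ ι (T8 x) - r := by
      intro h
      apply hdisc
      apply ι.injective
      have e : ι (T8 x) = 2 * r := by linear_combination -h
      have e2 : ι (N8 x) = r ^ 2 := by
        rw [e] at hrr
        linear_combination hrr
      simp only [map_sub, map_mul, map_pow, map_zero, map_ofNat]
      rw [e, e2]
      ring
    have hq : ∀ c : F, (ι c) ^ (p ^ a) = ι c := by
      intro c
      rw [← map_pow, ← hF, pow_natCard']
    let σ : AdjoinRoot f →+* AdjoinRoot f := iterateFrobenius (AdjoinRoot f) p a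
    have hσa : ∀ c, σ c = c ^ (p ^ a) := fun c => frob_eq (p := p) (a := a) _ c
    have hσr : (σ r - r) * (σ r - (ι (T8 x) - r)) = 0 := by
      have h1 : σ (r ^ 2 - ι (T8 x) * r + ι (N8 x)) = 0 := by rw [hrr, map_zero]
      simp only [map_add, map_sub, map_mul, map_pow] at h1
      rw [hσa (ι _), hσa (ι _), hq, hq] at h1
      linear_combination h1 - hrr
    have hσne : σ r ≠ r := by
      intro h
      obtain ⟨s, hs⟩ := ChevTori.Final.range_of_fix hF (K := AdjoinRoot f) (t := r) (by rw [← hσa]; exact h)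
      apply hfr s
      simp only [f, IsRoot.def, eval_add, eval_sub, eval_mul, eval_pow, eval_X, eval_C]
      apply ι.injective
      simp only [map_add, map_sub, map_mul, map_pow, map_zero]
      change ι s ^ 2 - _ * ι s + _ = 0
      rw [show ι s = r from hs]
      exact hrr
    have hσ2 : σ r = ι (T8 x) - r := by
      have := (mul_eq_zero.mp hσr).resolve_left (sub_ne_zero.mpr hσne)
      exact sub_eq_zero.mp this
    refine nonsplit_case (E := AdjoinRoot f) hF ha ?_ hg hx (r := r) (r' := ι (T8 x) - r) hne (by ring) ?_ ?_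
    · intro c
      rw [← pow_mul, ← pow_two, ← hcard]
      exact pow_natCard' c
    · linear_combination hrr
    · rw [← hσa]
      exact hσ2

end Cfsg.Agent.Lib.G2Oct.BranchA
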