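import Mathlib
import Cfsg.Agent.Lib.G2Oct.Zorn

/-!
Automorphisms of the split octonions fixing an element of square zero: the flag of invariant subspaces and the
resulting annihilating polynomials.
-/

set_option autoImplicit false
set_option linter.unusedSectionVars false
set_option linter.unusedSimpArgs false
set_option linter.unusedVariables false

namespace Cfsg.Agent.Lib.G2Oct.Chain

open Cfsg.Lie Matrix Cfsg.Agent.Lib.G2Oct.Zorn

variable {F : Type*} [Field F]

theorem x0_mul (y : O F) : zornMul x0 y = ![y 4, y 7, 0, 0, 0, -y 3, y 2, 0] := by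
  funext i
  fin_cases i <;> simp [zm, x0]

/-- The subspace with only the coordinates 1, 5, 6. -/
def inJ (z : O F) : Prop := z 0 = 0 ∧ z 2 = 0 ∧ z 3 = 0 ∧ z 4 = 0 ∧ z 7 = 0

/-- The first basis vector of the plane. -/
def e5 : O F := ![0, 0, 0, 0, 0, 1, 0, 0]
/-- The second basis vector of the plane. -/
def e6 : O F := ![0, 0, 0, 0, 0, 0, 1, 0]

theorem e5_inJ : inJ (e5 : O F) := by simp [inJ, e5]
theorem e6_inJ : inJ (e6 : O F) := by simp [inJ, e6]

/-- The trace on the plane. -/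
noncomputable def trM (g : GL (Fin 8) F) : F := act g e5 5 + act g e6 6

/-- The operator `g - 1`. -/
noncomputable def Pf (g : GL (Fin 8) F) (y : O F) : O F := act g y - y

/-- The operator `g ^ 2 - c g + 1`. -/
noncomputable def Qf (g : GL (Fin 8) F) (c : F) (y : O F) : O F := act g (act g y) - c • act g y + y

section

variable {g : GL (Fin 8) F} (hg : g ∈ G2 F) (hx : act g x0 = x0)

include hg hx

theorem comm_L (y : O F) : act g (zornMul x0 y) = zornMul x0 (act g y) := by
  rw [act_hom hg, hx]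

theorem act4 (y : O F) : act g y 4 = y 4 := by
  have := B8_act hg x0 y
  rw [hx] at this
  simpa [B8, x0] using this

/-- Consequences of the commutation, in coordinates. -/
theorem coords (y : O F) : act g (zornMul x0 y) = ![act g y 4, act g y 7, 0, 0, 0, -act g y 3, act g y 2, 0] := by
  rw [comm_L hg hx, x0_mul]

theorem inJ_mul {y : O F} (h4 : y 4 = 0) : inJ (zornMul x0 y) := by
  rw [x0_mul]
  simp [inJ, h4]

theorem inJ_act {z : O F} (hz : inJ z) : inJ (act g z) := by
  obtain ⟨h0, h2, h3, h4, h7⟩ := hz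
  have e : zornMul x0 z = 0 := by
    rw [x0_mul, h4, h7, h3, h2]
    funext i
    fin_cases i <;> simp
  have h := coords hg hx z
  rw [e, act_zero] at h
  have c0 := congrFun h 0
  have c1 := congrFun h 1
  have c5 := congrFun h 5
  have c6 := congrFun h 6
  simp at c0 c1 c5 c6
  have hT := T8_act hg z
  simp only [T8] at hT
  rw [h0, h7, c1.symm] at hT
  refine ⟨by simpa using hT, by first | exact c6 | exact c6.symm, by first | exact c5 | exact c5.symm, by first | exact c0 | exact c0.symm, by first | exact c1 | exact c1.symm⟩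

theorem act_J_coord {z : O F} (hz : inJ z) :
    act g z 5 = z 5 * act g e5 5 + z 6 * act g e6 5 ∧ act g z 6 = z 5 * act g e5 6 + z 6 * act g e6 6 := by
  obtain ⟨h0, h2, h3, h4, h7⟩ := hz
  have e : z = z 1 • x0 + z 5 • e5 + z 6 • e6 := by
    funext i
    fin_cases i <;> simp [x0, e5, e6, h0, h2, h3, h4, h7]
  have h : act g z = z 1 • x0 + z 5 • act g e5 + z 6 • act g e6 := by
    conv_lhs => rw [e, act_add, act_add, act_smul, act_smul, act_smul, hx]
  rw [h]
  constructor <;> simp only [Pi.add_apply, Pi.smul_apply, smul_eq_mul] <;> simp [x0]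

theorem detM : act g e5 5 * act g e6 6 - act g e6 5 * act g e5 6 = 1 := by
  have e : zornMul (e5 : O F) e6 = (-1 : F) • x0 := by
    funext i
    fin_cases i <;> simp [zm, e5, e6, x0]
  have h := act_hom hg (e5 : O F) e6
  rw [e, act_smul, hx] at h
  obtain ⟨h0, h2, h3, h4, h7⟩ := inJ_act hg hx (e5_inJ (F := F))
  obtain ⟨h0', h2', h3', h4', h7'⟩ := inJ_act hg hx (e6_inJ (F := F))
  have c := congrFun h 1
  rw [zm] at c
  simp [x0, h0, h2, h3, h4, h7, h0', h2', h3', h4', h7'] at c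
  linear_combination c

theorem Qf_J {z : O F} (hz : inJ z) : inJ (Qf g (trM g) z) ∧ Qf g (trM g) z 5 = 0 ∧ Qf g (trM g) z 6 = 0 := by
  have h1 := inJ_act hg hx hz
  have h2 := inJ_act hg hx h1
  obtain ⟨a0, a2, a3, a4, a7⟩ := hz
  obtain ⟨b0, b2, b3, b4, b7⟩ := h1
  obtain ⟨c0, c2, c3, c4, c7⟩ := h2
  have h1 := inJ_act hg hx ⟨a0, a2, a3, a4, a7⟩
  obtain ⟨u5, u6⟩ := act_J_coord hg hx ⟨a0, a2, a3, a4, a7⟩
  obtain ⟨v5, v6⟩ := act_J_coord hg hx h1
  have hd := detM hg hx
  refine ⟨⟨?_, ?_, ?_, ?_, ?_⟩, ?_, ?_⟩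
  · simp [Qf, a0, b0, c0]
  · simp [Qf, a2, b2, c2]
  · simp [Qf, a3, b3, c3]
  · simp [Qf, a4, b4, c4]
  · simp [Qf, a7, b7, c7]
  · simp only [Qf, trM, Pi.add_apply, Pi.sub_apply, Pi.smul_apply, smul_eq_mul]
    rw [v5, u5, u6]
    linear_combination (-z 5) * hd
  · simp only [Qf, trM, Pi.add_apply, Pi.sub_apply, Pi.smul_apply, smul_eq_mul]
    rw [v6, u5, u6]
    linear_combination (-z 6) * hd

theorem smul_x0_act (k : F) : act g (k • x0) = k • x0 := by
  rw [act_smul, hx]

theorem Pf_x0_of {z : O F} (hz : inJ z) (h5 : z 5 = 0) (h6 : z 6 = 0) : Pf g z = 0 := by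
  obtain ⟨a0, a2, a3, a4, a7⟩ := hz
  have e : z = z 1 • x0 := by
    funext i
    fin_cases i <;> simp [x0, a0, a2, a3, a4, a7, h5, h6]
  rw [Pf, e, smul_x0_act hg hx]
  simp

/-- The subspace defined by trace zero and coordinate 4. -/
def inW4 (y : O F) : Prop := T8 y = 0 ∧ y 4 = 0

/-- The subspace defined by trace zero and coordinates 2, 3, 4. -/
def inW3 (y : O F) : Prop := T8 y = 0 ∧ y 2 = 0 ∧ y 3 = 0 ∧ y 4 = 0

theorem Pf_W4 (y : O F) : inW4 (Pf g y) := by
  constructor
  · simp only [Pf, T8, Pi.sub_apply]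
    have := T8_act hg y
    simp only [T8] at this
    linear_combination this
  · simp [Pf, act4 hg hx y]

theorem Qf_W4 {y : O F} (hy : inW4 y) : inW3 (Qf g (trM g) y) := by
  obtain ⟨hT, h4⟩ := hy
  have hz := inJ_mul hg hx h4
  have e1 := coords hg hx y
  have e2 := coords hg hx (act g y)
  rw [comm_L hg hx y] at e1
  have e2' : act g (act g (zornMul x0 y)) = ![act g (act g y) 4, act g (act g y) 7, 0, 0, 0, -act g (act g y) 3, act g (act g y) 2, 0] := by
    rw [comm_L hg hx y]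
    exact e2
  have e1' : act g (zornMul x0 y) = ![act g y 4, act g y 7, 0, 0, 0, -act g y 3, act g y 2, 0] := coords hg hx y
  obtain ⟨-, q5, q6⟩ := Qf_J hg hx hz
  simp only [Qf, Pi.add_apply, Pi.sub_apply, Pi.smul_apply, smul_eq_mul] at q5 q6
  rw [e2', e1', x0_mul] at q5 q6
  simp at q5 q6
  have h41 := act4 hg hx y
  have h42 := act4 hg hx (act g y)
  have hT1 := T8_act hg y
  have hT2 := T8_act hg (act g y)
  refine ⟨?_, ?_, ?_, ?_⟩
  · simp only [Qf, T8, Pi.add_apply, Pi.sub_apply, Pi.smul_apply, smul_eq_mul]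
    simp only [T8] at hT hT1 hT2
    linear_combination hT2 + hT1 * (1 - trM g) + hT * (2 - trM g)
  · simp only [Qf, Pi.add_apply, Pi.sub_apply, Pi.smul_apply, smul_eq_mul]
    linear_combination q6
  · simp only [Qf, Pi.add_apply, Pi.sub_apply, Pi.smul_apply, smul_eq_mul]
    linear_combination -q5
  · simp only [Qf, Pi.add_apply, Pi.sub_apply, Pi.smul_apply, smul_eq_mul]
    rw [h42, h41, h4]
    ring

theorem Pf_W3 {y : O F} (hy : inW3 y) : inJ (Pf g y) := by
  obtain ⟨hT, h2, h3, h4⟩ := hy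
  have e1 := coords hg hx y
  have e : zornMul x0 y = y 7 • x0 := by
    rw [x0_mul, h4, h3, h2]
    funext i
    fin_cases i <;> simp [x0]
  rw [e, smul_x0_act hg hx] at e1
  have c0 := congrFun e1 0
  have c1 := congrFun e1 1
  have c5 := congrFun e1 5
  have c6 := congrFun e1 6
  simp [x0] at c0 c1 c5 c6
  have hT1 := T8_act hg y
  simp only [T8] at hT hT1
  have c7 : act g y 0 = y 0 := by
    rw [← c1] at hT1
    linear_combination hT1
  refine ⟨?_, ?_, ?_, ?_, ?_⟩
  · simp [Pf, c7]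
  · simp [Pf, h2, c6]
  · simp [Pf, h3, c5]
  · simp [Pf, h4, c0]
  · simp [Pf, ← c1]

/-- The chain of inclusions. -/
theorem chain (y : O F) : Pf g (Qf g (trM g) (Pf g (Qf g (trM g) (Pf g y)))) = 0 := by
  have h1 := Pf_W4 hg hx y
  have h2 := Qf_W4 hg hx h1
  have h3 := Pf_W3 hg hx h2
  obtain ⟨h4, h5, h6⟩ := Qf_J hg hx h3
  exact Pf_x0_of hg hx h4 h5 h6

theorem Qf_add (c : F) (u v : O F) : Qf g c (u + v) = Qf g c u + Qf g c v := by
  simp only [Qf, act_add, smul_add]
  abel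

theorem Qf_smul (c k : F) (u : O F) : Qf g c (k • u) = k • Qf g c u := by
  simp only [Qf, act_smul, smul_add, smul_sub, smul_smul, mul_comm]

theorem Pf_add (u v : O F) : Pf g (u + v) = Pf g u + Pf g v := by
  simp only [Pf, act_add]
  abel

theorem Pf_smul (k : F) (u : O F) : Pf g (k • u) = k • Pf g u := by
  simp only [Pf, act_smul, smul_sub]

/-- The shorter chain in characteristic two. -/
theorem chain2 (h2 : (2 : F) = 0) (y : O F) : Pf g (Qf g (trM g) (Qf g (trM g) (Pf g y))) = 0 := by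
  have h1 := Pf_W4 hg hx y
  obtain ⟨hT, a2, a3, a4⟩ := Qf_W4 hg hx h1
  obtain ⟨u, hu⟩ : ∃ u, u = Qf g (trM g) (Pf g y) := ⟨_, rfl⟩
  rw [← hu] at hT a2 a3 a4 ⊢
  have hT' : u 7 = u 0 := by
    simp only [T8] at hT
    have e : (-1 : F) = 1 := by linear_combination -h2
    linear_combination hT - h2 * u 0
  obtain ⟨z, hz⟩ : ∃ z, z = u - u 0 • one8 := ⟨_, rfl⟩
  have hzJ : inJ z := by
    rw [hz]
    refine ⟨?_, ?_, ?_, ?_, ?_⟩ <;> simp [one8, a2, a3, a4, hT']
  have e : u = z + u 0 • one8 := by rw [hz]; abel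
  obtain ⟨-, q5, q6⟩ := Qf_J hg hx hzJ
  have hQ1 : Qf g (trM g) (one8 : O F) = (2 - trM g) • one8 := by
    simp only [Qf, act_one8 hg]
    rw [sub_smul, two_smul]
    abel
  have hP1 : Pf g (one8 : O F) = 0 := by simp [Pf, act_one8 hg]
  rw [e, Qf_add hg hx, Qf_smul hg hx, hQ1, Pf_add hg hx, Pf_x0_of hg hx (Qf_J hg hx hzJ).1 q5 q6, Pf_smul hg hx, Pf_smul hg hx, hP1]
  simp

end

end Cfsg.Agent.Lib.G2Oct.Chain
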