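import Mathlib
import Cfsg.Agent.Lib.ChevTori.Final
import Cfsg.Agent.Lib.ChevOrder.Cert.G2
import Cfsg.Agent.Lib.Chevalley.Tbl.G2Sys
import Cfsg.Agent.Lib.ChevBN.FastData
import Cfsg.Agent.Lib.Classical.Spectra.Ppd

/-!
An element of order `q ^ 2 - q + 1` in the Chevalley group of type `G₂`.
-/

set_option autoImplicit false

namespace Cfsg.Agent.Lib.G2Oct.Low6

open Polynomial Cfsg.Agent.Lib.ChevTori.Final Cfsg.Agent.Lib.Classical.Spectra.Ppd

theorem cyc_six : cyclotomic 6 ℤ = X ^ 2 - X + 1 := by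
  have h := cyclotomic_expand_eq_cyclotomic_mul (n := 3) (p := 2) Nat.prime_two (by norm_num) ℤ
  have h5 : (cyclotomic 3 ℤ) ≠ 0 := cyclotomic_ne_zero 3 ℤ
  apply mul_right_cancel₀ h5
  have h2 : cyclotomic 6 ℤ = cyclotomic (3 * 2) ℤ := rfl
  have h3 : cyclotomic 3 ℤ = X ^ 2 + X + 1 := by
    haveI : Fact (Nat.Prime 3) := ⟨by norm_num⟩
    rw [cyclotomic_prime]
    simp [Finset.sum_range_succ]
    ring
  rw [h2, ← h, h3]
  simp only [map_add, map_pow, map_one, expand_X]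
  ring

theorem phi_six (q : ℕ) (hq : 2 ≤ q) : phi 6 q = q ^ 2 - q + 1 := by
  have h1 : q ≤ q ^ 2 := by nlinarith
  have h6 : (((phi 6 q : ℕ)) : ℤ) = (q : ℤ) ^ 2 - (q : ℤ) + 1 := by
    rw [phi_cast (by norm_num), cyc_six]
    simp
  have h7 : (((phi 6 q : ℕ)) : ℤ) = ((q ^ 2 : ℕ) : ℤ) - (q : ℤ) + 1 := by
    rw [h6]
    push_cast
    ring
  omega

theorem hord (L : Type*) [Field L] [Finite L] {Q : ℕ} (hQ : Nat.card L = Q) :
    Nat.card (Cfsg.Lie.chevG2.group L) = Q ^ 6 * (([2, 6] : List ℕ).map fun e => Q ^ e - 1).prod := by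
  have h := Cfsg.Agent.Lib.ChevOrder.Cert.G2.order (F := L)
    Cfsg.Agent.Lib.ChevBN.FastData.tbl_chevG2 Cfsg.Agent.Lib.Chevalley.Tbl.G2.sys hQ
  rw [one_mul] at h
  rw [h]
  simp [mul_assoc]

/-- An element of order `q ^ 2 - q + 1`. -/
theorem exists_order_d6 {F : Type*} [Field F] [Fintype F] (q : ℕ) (hF : Fintype.card F = q) (hq3 : 3 ≤ q) :
    ∃ y : ↥(Cfsg.Lie.chevG2.group F), orderOf y = q ^ 2 - q + 1 := by
  have hF' : Nat.card F = q := by rw [Nat.card_eq_fintype_card, hF]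
  have hq : 2 ≤ q := by omega
  obtain ⟨ℓ, hℓ, hprim⟩ := exists_ppd (m := 6) (q := q) (by norm_num) hq3
  haveI : Fact ℓ.Prime := ⟨hℓ⟩
  have hdv : 6 ∣ ℓ - 1 := dvd_sub_one hprim (by norm_num)
  have hℓ7 : 7 ≤ ℓ := by
    have h1 := Nat.le_of_dvd (by have := hℓ.two_le; omega) hdv
    omega
  obtain ⟨H, hcyc, hcard, -⟩ := final (D := Cfsg.Lie.chevG2) (F := F) (q := q) (d := 6) (m := 6) (m' := 6)
    Cfsg.Agent.Lib.Chevalley.Tbl.G2.sys (fun L _ => Cfsg.Agent.Lib.Chevalley.Tbl.G2.sys)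
    Cfsg.Agent.Lib.ChevBN.FastData.tbl_chevG2 Cfsg.Agent.Lib.ChevFix.unimod_G2
    [2, 6] (by decide +kernel) hF' (by norm_num) (by decide +kernel) hℓ hprim
    (hord F hF') (fun L _ _ hL => hord L hL) ⟨6, by simp, dvd_rfl⟩ (by
      intro e he hle
      have h2 : 0 < e := by
        simp only [List.mem_cons, List.not_mem_nil, or_false] at he
        omega
      have h1 : e ≤ 6 := by
        simp only [List.mem_cons, List.not_mem_nil, or_false] at he
        omega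
      have := Nat.le_of_dvd h2 hle
      omega)
  rw [phi_six q hq] at hcard
  obtain ⟨y, hy⟩ := IsCyclic.exists_generator (α := ↥H)
  refine ⟨y, ?_⟩
  rw [Subgroup.orderOf_coe, orderOf_eq_card_of_forall_mem_zpowers hy, hcard]

end Cfsg.Agent.Lib.G2Oct.Low6
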