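import Mathlib
import Cfsg.Agent.Lib.Classical.Lin.G2Field
import Cfsg.Agent.Lib.Classical.Lin.G2Grp

/-!
Element orders in the Chevalley group of type `G₂` coming from `SL₃`.
-/

set_option autoImplicit false
set_option linter.unusedSectionVars false
set_option linter.unusedSimpArgs false
set_option linter.unusedVariables false

namespace Cfsg.Agent.Lib.G2Oct.LowSL

open Cfsg.Lie Matrix
open Cfsg.Agent.Lib.Classical.Lin.G2Sep Cfsg.Agent.Lib.Classical.Lin.G2Cov
open Cfsg.Agent.Lib.Classical.Lin.G2Grp Cfsg.Agent.Lib.Classical.Lin.G2Field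

variable {F : Type*} [Field F]

local notation "SL₃" => Matrix.SpecialLinearGroup (Fin 3) F

theorem cov_left' {x : Matrix chevG2.Idx chevG2.Idx F} {A A' B B' : Matrix (Fin 3) (Fin 3) F} (h : Cov x A B)
    (h' : Cov x A' B') : A = A' := by
  apply Matrix.ext_iff_mulVec.2
  intro v
  have e1 := h.v_eq (nu 0 v 0)
  have e2 := h'.v_eq (nu 0 v 0)
  rw [vof_nu] at e1 e2
  rw [← e1, ← e2]

/-- An element of the special linear group gives an element of the same order. -/
theorem exists_sl_order (M : SL₃) : ∃ y : ↥(chevG2.group F), orderOf y = orderOf M := by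
  obtain ⟨x, hxG, hx⟩ := exists_sl M
  refine ⟨⟨x, hxG⟩, ?_⟩
  rw [orderOf_eq_orderOf_iff]
  intro n
  have hc : Cov ((x : Matrix chevG2.Idx chevG2.Idx F) ^ n) ((M : Matrix (Fin 3) (Fin 3) F) ^ n)
      (((M⁻¹ : SL₃) : Matrix (Fin 3) (Fin 3) F) ^ n) := hx.pow n
  have hval : ((⟨x, hxG⟩ : ↥(chevG2.group F)) ^ n = 1) ↔ (x : Matrix chevG2.Idx chevG2.Idx F) ^ n = 1 := by
    constructor
    · intro h
      have := congrArg (fun z : ↥(chevG2.group F) => ((z : GL chevG2.Idx F) : Matrix chevG2.Idx chevG2.Idx F)) h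
      simpa using this
    · intro h
      apply Subtype.ext
      apply Units.ext
      simpa using h
  have hM : (M ^ n = 1) ↔ (M : Matrix (Fin 3) (Fin 3) F) ^ n = 1 := by
    constructor
    · intro h
      have := congrArg (fun z : SL₃ => (z : Matrix (Fin 3) (Fin 3) F)) h
      simpa using this
    · intro h
      apply Subtype.ext
      simpa using h
  rw [hval, hM]
  constructor
  · intro h
    rw [h] at hc
    exact cov_left' hc Cov.one
  · intro h
    have h2 : ((M⁻¹ : SL₃) : Matrix (Fin 3) (Fin 3) F) ^ n = 1 := by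
      have h3 : (M⁻¹) ^ n = 1 := by
        rw [inv_pow, hM.mpr h, inv_one]
      have := congrArg (fun z : SL₃ => (z : Matrix (Fin 3) (Fin 3) F)) h3
      simpa using this
    rw [h, h2] at hc
    exact hc.eq Cov.one

/-- The block matrix. -/
noncomputable def blkV (S : GL (Fin 2) F) : Matrix (Fin 3) (Fin 3) F :=
  !![(S : Matrix (Fin 2) (Fin 2) F) 0 0, (S : Matrix (Fin 2) (Fin 2) F) 0 1, 0;
     (S : Matrix (Fin 2) (Fin 2) F) 1 0, (S : Matrix (Fin 2) (Fin 2) F) 1 1, 0;
     0, 0, ((S : Matrix (Fin 2) (Fin 2) F).det)⁻¹]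

theorem det_ne (S : GL (Fin 2) F) : (S : Matrix (Fin 2) (Fin 2) F).det ≠ 0 := by
  have h := S.det_ne_zero  
  exact h

theorem blkV_det (S : GL (Fin 2) F) : (blkV S).det = 1 := by
  have h := det_ne S
  rw [Matrix.det_fin_two] at h
  simp only [blkV, Matrix.det_fin_three, Matrix.det_fin_two]
  simp
  field_simp

/-- The block homomorphism. -/
noncomputable def blk : GL (Fin 2) F →* SL₃ where
  toFun S := ⟨blkV S, blkV_det S⟩
  map_one' := by
    apply Subtype.ext
    show blkV 1 = 1
    ext i j
    fin_cases i <;> fin_cases j <;> simp [blkV]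
  map_mul' S T := by
    apply Subtype.ext
    show blkV (S * T) = blkV S * blkV T
    have hS := det_ne S
    have hT := det_ne T
    ext i j
    fin_cases i <;> fin_cases j <;>
      simp [blkV, Matrix.mul_apply, Fin.sum_univ_succ, Matrix.det_mul] <;> ring

theorem blk_inj : Function.Injective (blk (F := F)) := by
  intro S T h
  apply Units.ext
  have h' : blkV S = blkV T := congrArg Subtype.val h
  ext i j
  have c := congrFun (congrFun h' (Fin.castSucc i)) (Fin.castSucc j)
  fin_cases i <;> fin_cases j <;> simpa [blkV] using c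

/-- A generator of the multiplicative group of the quadratic extension as a matrix. -/
theorem exists_singer [Finite F] : ∃ S : GL (Fin 2) F, orderOf S = Nat.card F ^ 2 - 1 := by
  classical
  obtain ⟨p, hp⟩ := CharP.exists F
  haveI : Fact p.Prime := ⟨CharP.char_is_prime F p⟩
  let K := FiniteField.Extension F p 2
  have h2 : Module.finrank F K = 2 := FiniteField.finrank_extension F p 2
  let b : Module.Basis (Fin 2) F K := Module.finBasisOfFinrankEq F K h2
  let f : K →* Matrix (Fin 2) (Fin 2) F := ((Algebra.leftMulMatrix b : K →ₐ[F] Matrix (Fin 2) (Fin 2) F) : K →* _)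
  have hf : Function.Injective f := Algebra.leftMulMatrix_injective b
  haveI : Finite K := Module.finite_of_finite F
  obtain ⟨ζ, hζ⟩ := IsCyclic.exists_generator (α := Kˣ)
  have hord : orderOf ζ = Nat.card Kˣ := orderOf_eq_card_of_forall_mem_zpowers hζ
  have hcard : Nat.card Kˣ = Nat.card F ^ 2 - 1 := by
    rw [Nat.card_units, Module.natCard_eq_pow_finrank (K := F) (V := K), h2]
  refine ⟨Units.map f ζ, ?_⟩
  rw [orderOf_injective (Units.map f) (Units.map_injective hf), hord, hcard]

/-- An element of order `q ^ 2 - 1`. -/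
theorem exists_order_sq_sub_one [Finite F] : ∃ y : ↥(chevG2.group F), orderOf y = Nat.card F ^ 2 - 1 := by
  obtain ⟨S, hS⟩ := exists_singer (F := F)
  obtain ⟨y, hy⟩ := exists_sl_order (blk S)
  exact ⟨y, by rw [hy, orderOf_injective blk blk_inj, hS]⟩

/-- An element of order `q ^ 2 + q + 1`. -/
theorem exists_order_d3 [Fintype F] (hq : 3 ≤ Fintype.card F) :
    ∃ y : ↥(chevG2.group F), orderOf y = Fintype.card F ^ 2 + Fintype.card F + 1 := by
  obtain ⟨s, s', f, f', hS, hdet, hord, -⟩ := exists_data (F := F) hq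
  let M : SL₃ := ⟨s, hdet⟩
  obtain ⟨y, hy⟩ := exists_sl_order M
  refine ⟨y, ?_⟩
  rw [hy, ← hord]
  refine orderOf_eq_orderOf_iff.mpr ?_
  intro n
  have e : ((M ^ n : SL₃) : Matrix (Fin 3) (Fin 3) F) = s ^ n :=
    Matrix.SpecialLinearGroup.coe_pow _ n
  constructor
  · intro h
    rw [← e, h]
    rfl
  · intro h
    apply Subtype.ext
    exact e.trans h

end Cfsg.Agent.Lib.G2Oct.LowSL
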