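import Mathlib
import Cfsg.Agent.Lib.G2Oct.LowSL
import Cfsg.Agent.Lib.G2Oct.Lift2
import Cfsg.Agent.Lib.ChevTori.RootSL2
import Cfsg.Agent.Lib.ChevAut.Basic
import Cfsg.Agent.Lib.ChevBN.FastData
import Cfsg.Agent.Lib.Chevalley.Tbl.G2NF
import Cfsg.Agent.Lib.Chevalley.AllEta

/-!
Element orders in the Chevalley group of type `G₂` coming from two commuting rank one subgroups.
-/

set_option autoImplicit false
set_option linter.unusedSectionVars false
set_option linter.unusedSimpArgs false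
set_option linter.unusedVariables false

namespace Cfsg.Agent.Lib.G2Oct.LowPsi

open Cfsg.Lie Matrix Cfsg.Agent.Lib.Chevalley.Reflect Cfsg.Agent.Lib.ChevIso.Act Cfsg.Agent.Lib.G2Oct.LiftT
  Cfsg.Agent.Lib.G2Oct.Lift Cfsg.Agent.Lib.G2Oct.Lift2 Cfsg.Agent.Lib.ChevTori.RootSL2
  Cfsg.Agent.Lib.ChevBN.Elem Cfsg.Agent.Lib.Chevalley
open Cfsg.Agent.Lib.G2Oct.Zorn (O psiF phiF trF psiG phiG trG psiG_act phiG_act trG_act)

local notation "SL₂" K => SpecialLinearGroup (Fin 2) K

variable {F : Type*} [Field F]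

theorem act_inj' {x x' : Matrix chevG2.Idx chevG2.Idx F}
    (h : ∀ a, act (D := chevG2) (Pm (F := F)) x a = act (D := chevG2) (Pm (F := F)) x' a) : x = x' := by
  ext c₀ a
  have h2 := congrArg (ev (dual (code chevG2 c₀))) (h a)
  rw [act, act, ev_sum, ev_sum] at h2
  rw [Finset.sum_eq_single c₀, Finset.sum_eq_single c₀] at h2
  · rw [ev_dual (code_lt14 _) (code_lt14 _), if_pos rfl, mul_one, mul_one] at h2
    exact h2
  · intro c _ hc
    rw [ev_dual (code_lt14 _) (code_lt14 _), if_neg (fun h' => hc (code_inj chevG2 h')), mul_zero]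
  · simp
  · intro c _ hc
    rw [ev_dual (code_lt14 _) (code_lt14 _), if_neg (fun h' => hc (code_inj chevG2 h')), mul_zero]
  · simp

/-- Two matrices related to the same invertible matrix agree. -/
theorem rel_unique {x x' : Matrix chevG2.Idx chevG2.Idx F} {w : GL (Fin 8) F}
    (h : Rel (D := chevG2) (Pm (F := F)) x (w : Matrix (Fin 8) (Fin 8) F))
    (h' : Rel (D := chevG2) (Pm (F := F)) x' (w : Matrix (Fin 8) (Fin 8) F)) : x = x' := by
  apply act_inj'
  intro a
  have e : act (D := chevG2) (Pm (F := F)) x a * (w : Matrix (Fin 8) (Fin 8) F) =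
      act (D := chevG2) (Pm (F := F)) x' a * (w : Matrix (Fin 8) (Fin 8) F) := by
    rw [h a, h' a]
  have hw : (w : Matrix (Fin 8) (Fin 8) F) * ((w⁻¹ : GL (Fin 8) F) : Matrix (Fin 8) (Fin 8) F) = 1 := by
    rw [← Units.val_mul, mul_inv_cancel, Units.val_one]
  calc act (D := chevG2) (Pm (F := F)) x a = act (D := chevG2) (Pm (F := F)) x a * ((w : Matrix (Fin 8) (Fin 8) F) * ((w⁻¹ : GL (Fin 8) F) : Matrix (Fin 8) (Fin 8) F)) := by
        rw [hw, mul_one]
    _ = act (D := chevG2) (Pm (F := F)) x' a * ((w : Matrix (Fin 8) (Fin 8) F) * ((w⁻¹ : GL (Fin 8) F) : Matrix (Fin 8) (Fin 8) F)) := by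
        rw [← mul_assoc, e, mul_assoc]
    _ = _ := by rw [hw, mul_one]

/-- Elements with commuting lifts commute. -/
theorem commute_of_lifts {g g' : GL chevG2.Idx F} {y y' : GL (Fin 8) F}
    (h : Rel (D := chevG2) (Pm (F := F)) (g : Matrix chevG2.Idx chevG2.Idx F) (y : Matrix (Fin 8) (Fin 8) F))
    (h' : Rel (D := chevG2) (Pm (F := F)) (g' : Matrix chevG2.Idx chevG2.Idx F) (y' : Matrix (Fin 8) (Fin 8) F))
    (hc : ∀ x, Cfsg.Agent.Lib.G2Oct.Zorn.act y (Cfsg.Agent.Lib.G2Oct.Zorn.act y' x) =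
      Cfsg.Agent.Lib.G2Oct.Zorn.act y' (Cfsg.Agent.Lib.G2Oct.Zorn.act y x)) : Commute g g' := by
  have hyy : y * y' = y' * y := by
    apply Cfsg.Agent.Lib.G2Oct.Stab.gl_ext_act
    intro x
    rw [Cfsg.Agent.Lib.G2Oct.Zorn.act_mul, Cfsg.Agent.Lib.G2Oct.Zorn.act_mul, hc]
  have h1 : Rel (D := chevG2) (Pm (F := F)) ((g : Matrix chevG2.Idx chevG2.Idx F) * g') (y * y' : GL (Fin 8) F).1 := by
    rw [Units.val_mul]
    exact h.mul h'
  have h2 : Rel (D := chevG2) (Pm (F := F)) ((g' : Matrix chevG2.Idx chevG2.Idx F) * g) (y * y' : GL (Fin 8) F).1 := by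
    rw [hyy, Units.val_mul]
    exact h'.mul h
  have := rel_unique h1 h2
  apply Units.ext
  rw [Units.val_mul, Units.val_mul]
  exact this

theorem hc2 : ∀ i < chevG2.rank, chevG2.cartan i (chevG2.simple i) = 2 :=
  Cfsg.Agent.Lib.Chevalley.AllEta.cartan_self _ (by simp)

theorem hη2 : ∀ i < chevG2.rank, Cfsg.Agent.Lib.Chevalley.SysOf.etaOf Cfsg.Agent.Lib.Chevalley.Tbl.G2.wT i (chevG2.simple i) = -1 :=
  fun _ hi => Cfsg.Agent.Lib.Chevalley.NForm.eta_simple_of_check _ Cfsg.Agent.Lib.Chevalley.Tbl.G2.nform_check hi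

theorem hnb2 : ∀ r : Fin chevG2.nroots, ∃ s : Fin chevG2.nroots,
    Cfsg.Agent.Lib.ChevBN.Table.Ad chevG2 (Cfsg.Agent.Lib.ChevBN.Table.cr chevG2 r) s = 1 := by
  decide +kernel

section Main

variable {p : ℕ} [Fact p.Prime] [CharP F p]

/-- The group relations. -/
theorem hRF : Cfsg.Agent.Lib.ChevBN.Rel.Sys chevG2 F (Cfsg.Agent.Lib.Chevalley.SysOf.etaOf
    Cfsg.Agent.Lib.Chevalley.Tbl.G2.wT) := Cfsg.Agent.Lib.Chevalley.Tbl.G2.sys

/-- The homomorphism of a root. -/
noncomputable abbrev ps (r : Fin chevG2.nroots) : (SL₂ F) →* GL chevG2.Idx F :=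
  psi (hRF (F := F)) Cfsg.Agent.Lib.ChevBN.FastData.tbl_chevG2 hc2 hη2 r

theorem rel_of {r : ℕ} (hr : r < 12) (t : F) {y : GL (Fin 8) F}
    (h : ∀ x, Ym r t *ᵥ x = Cfsg.Agent.Lib.G2Oct.Zorn.act y x) :
    Rel (D := chevG2) (Pm (F := F)) ((X (hRF (F := F)).toAddRel r t : GL chevG2.Idx F) : Matrix chevG2.Idx chevG2.Idx F)
      (y : Matrix (Fin 8) (Fin 8) F) := by
  rw [coe_X, x_eq_xMat chevG2 hr, coe_eq_of_mulVec h]
  exact rel_root hr t

theorem comm7_11 (t u : F) : Commute (X (hRF (F := F)).toAddRel 7 t) (X (hRF (F := F)).toAddRel 11 u) := by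
  refine commute_of_lifts (rel_of (by norm_num) t (y := psiG (t • (![1, 0, 0] : Fin 3 → F))) (fun x => by rw [ym7, psiG_act]))
    (rel_of (by norm_num) u (y := trG 1 2 (by decide) u) (fun x => by rw [ym11, trG_act])) ?_
  intro x
  simp only [psiG_act, trG_act]
  funext i
  fin_cases i <;> simp [psiF, trF, zA, zB] <;> ring

theorem comm7_0 (t u : F) : Commute (X (hRF (F := F)).toAddRel 7 t) (X (hRF (F := F)).toAddRel 0 u) := by
  refine commute_of_lifts (rel_of (by norm_num) t (y := psiG (t • (![1, 0, 0] : Fin 3 → F))) (fun x => by rw [ym7, psiG_act]))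
    (rel_of (by norm_num) u (y := trG 2 1 (by decide) u) (fun x => by rw [ym0, trG_act])) ?_
  intro x
  simp only [psiG_act, trG_act]
  funext i
  fin_cases i <;> simp [psiF, trF, zA, zB] <;> ring

theorem comm4_11 (t u : F) : Commute (X (hRF (F := F)).toAddRel 4 t) (X (hRF (F := F)).toAddRel 11 u) := by
  refine commute_of_lifts (rel_of (by norm_num) t (y := phiG (t • (![1, 0, 0] : Fin 3 → F))) (fun x => by rw [ym4, phiG_act]))
    (rel_of (by norm_num) u (y := trG 1 2 (by decide) u) (fun x => by rw [ym11, trG_act])) ?_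
  intro x
  simp only [phiG_act, trG_act]
  funext i
  fin_cases i <;> simp [phiF, trF, zA, zB] <;> ring

theorem comm4_0 (t u : F) : Commute (X (hRF (F := F)).toAddRel 4 t) (X (hRF (F := F)).toAddRel 0 u) := by
  refine commute_of_lifts (rel_of (by norm_num) t (y := phiG (t • (![1, 0, 0] : Fin 3 → F))) (fun x => by rw [ym4, phiG_act]))
    (rel_of (by norm_num) u (y := trG 2 1 (by decide) u) (fun x => by rw [ym0, trG_act])) ?_
  intro x
  simp only [phiG_act, trG_act]
  funext i
  fin_cases i <;> simp [phiF, trF, zA, zB] <;> ring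

/-- The two rank one subgroups commute. -/
theorem ps_comm (a b : SL₂ F) : Commute (ps ⟨7, by decide⟩ a) (ps ⟨11, by decide⟩ b) := by
  have h1 : ps ⟨11, by decide⟩ b ∈ Subgroup.centralizer {ps ⟨7, by decide⟩ a} := by
    apply psi_mem
    · intro u
      rw [Subgroup.mem_centralizer_singleton_iff]
      have h2 : ps ⟨7, by decide⟩ a ∈ Subgroup.centralizer {X (hRF (F := F)).toAddRel 11 u} := by
        apply psi_mem
        · intro t
          rw [Subgroup.mem_centralizer_singleton_iff]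
          exact (comm7_11 t u).eq
        · intro t
          rw [Subgroup.mem_centralizer_singleton_iff]
          exact (comm4_11 t u).eq
      exact (Subgroup.mem_centralizer_singleton_iff.mp h2).symm
    · intro u
      rw [Subgroup.mem_centralizer_singleton_iff]
      have h2 : ps ⟨7, by decide⟩ a ∈ Subgroup.centralizer {X (hRF (F := F)).toAddRel 0 u} := by
        apply psi_mem
        · intro t
          rw [Subgroup.mem_centralizer_singleton_iff]
          exact (comm7_0 t u).eq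
        · intro t
          rw [Subgroup.mem_centralizer_singleton_iff]
          exact (comm4_0 t u).eq
      exact (Subgroup.mem_centralizer_singleton_iff.mp h2).symm
  exact (Subgroup.mem_centralizer_singleton_iff.mp h1).symm

theorem ps_inj (r : Fin chevG2.nroots) : Function.Injective (ps (F := F) r) :=
  psi_inj _ _ _ _ hnb2 r

theorem ps_mem (r : Fin chevG2.nroots) (a : SL₂ F) : ps r a ∈ chevG2.group F := by
  apply psi_mem
  · intro t
    exact Cfsg.Agent.Lib.ChevAut.X_mem_group _ _ _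
  · intro t
    exact Cfsg.Agent.Lib.ChevAut.X_mem_group _ _ _

theorem X_pow (n : ℕ) : (SL2Hom.X (1 : F)) ^ n = SL2Hom.X (n : F) := by
  induction n with
  | zero =>
    rw [pow_zero]
    apply Subtype.ext
    ext i j
    fin_cases i <;> fin_cases j <;> simp [SL2Hom.X]
  | succ n ih =>
    rw [pow_succ, ih]
    apply Subtype.ext
    show (SL2Hom.X (n : F)).1 * (SL2Hom.X (1 : F)).1 = (SL2Hom.X ((n + 1 : ℕ) : F)).1
    ext i j
    fin_cases i <;> fin_cases j <;> simp [SL2Hom.X, Matrix.mul_apply, Fin.sum_univ_two]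
    ring

include p in
theorem order_X : orderOf (SL2Hom.X (1 : F)) = p := by
  haveI := Fact.out (p := p.Prime)
  apply orderOf_eq_prime
  · rw [X_pow, CharP.cast_eq_zero F p]
    apply Subtype.ext
    ext i j
    fin_cases i <;> fin_cases j <;> simp [SL2Hom.X]
  · intro h
    have := congrArg (fun z : SL₂ F => z.1 0 1) h
    simp [SL2Hom.X] at this

/-- The product of an element of a long rank one subgroup and a short root element. -/
theorem exists_mul (s : SL₂ F) (hs : Nat.Coprime (orderOf s) p) :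
    ∃ y : ↥(chevG2.group F), orderOf y = orderOf s * p := by
  let a : GL chevG2.Idx F := ps ⟨11, by decide⟩ s
  let b : GL chevG2.Idx F := ps ⟨7, by decide⟩ (SL2Hom.X (1 : F))
  have ha : orderOf a = orderOf s := orderOf_injective _ (ps_inj _) s
  have hb : orderOf b = p := by
    rw [orderOf_injective _ (ps_inj (F := F) ⟨7, by decide⟩) (SL2Hom.X (1 : F)), order_X (p := p)]
  have hc : Commute a b := (ps_comm _ _).symm
  refine ⟨⟨a * b, Subgroup.mul_mem _ (ps_mem _ _) (ps_mem _ _)⟩, ?_⟩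
  rw [Subgroup.orderOf_mk, hc.orderOf_mul_eq_mul_orderOf_of_coprime (by rw [ha, hb]; exact hs), ha, hb]

/-- An element of order `p (q + 1)`. -/
theorem exists_order_plus [Finite F] {a : ℕ} (ha : 1 ≤ a) (hF : Nat.card F = p ^ a) :
    ∃ y : ↥(chevG2.group F), orderOf y = (p ^ a + 1) * p := by
  haveI : Fintype F := Fintype.ofFinite F
  have hq : Fintype.card F = p ^ a := by rw [← Nat.card_eq_fintype_card, hF]
  have hprime : p.Prime := Fact.out
  have hq2 : 2 ≤ p ^ a := by
    calc 2 ≤ p := hprime.two_le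
      _ = p ^ 1 := (pow_one p).symm
      _ ≤ p ^ a := Nat.pow_le_pow_right hprime.pos ha
  obtain ⟨S, hS⟩ := LowSL.exists_singer (F := F)
  rw [hF] at hS
  have hfac : (p ^ a) ^ 2 - 1 = (p ^ a - 1) * (p ^ a + 1) := by
    obtain ⟨k, hk⟩ : ∃ k, p ^ a = k + 1 := ⟨p ^ a - 1, by omega⟩
    rw [hk]
    simp only [Nat.add_sub_cancel]
    have : (k + 1) ^ 2 = k * (k + 1 + 1) + 1 := by ring
    rw [this]
    simp
  have hdet : ((S ^ (p ^ a - 1) : GL (Fin 2) F) : Matrix (Fin 2) (Fin 2) F).det = 1 := by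
    rw [Units.val_pow_eq_pow_val, Matrix.det_pow]
    rw [← hq]
    exact FiniteField.pow_card_sub_one_eq_one _ (LowSL.det_ne S)
  let s : SL₂ F := ⟨((S ^ (p ^ a - 1) : GL (Fin 2) F) : Matrix (Fin 2) (Fin 2) F), hdet⟩
  have hs : orderOf s = p ^ a + 1 := by
    have e1 : orderOf s = orderOf (S ^ (p ^ a - 1)) := by
      refine orderOf_eq_orderOf_iff.mpr ?_
      intro n
      have e : ((s ^ n : SL₂ F) : Matrix (Fin 2) (Fin 2) F) = ((S ^ (p ^ a - 1) : GL (Fin 2) F) : Matrix (Fin 2) (Fin 2) F) ^ n :=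
        Matrix.SpecialLinearGroup.coe_pow _ n
      constructor
      · intro h
        apply Units.ext
        rw [Units.val_pow_eq_pow_val, ← e, h]
        rfl
      · intro h
        apply Subtype.ext
        refine e.trans ?_
        rw [← Units.val_pow_eq_pow_val, h]
        rfl
    rw [e1, orderOf_pow_of_dvd (by omega) (by rw [hS, hfac]; exact dvd_mul_right _ _), hS, hfac]
    exact Nat.mul_div_cancel_left _ (by omega)
  refine exists_mul s ?_ |>.imp ?_
  · rw [hs]
    have hd : p ∣ p ^ a := dvd_pow_self p (by omega)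
    apply Nat.Coprime.symm
    rw [Nat.Prime.coprime_iff_not_dvd hprime]
    intro h
    have : p ∣ 1 := (Nat.dvd_add_right hd).mp h
    exact hprime.one_lt.ne' (Nat.dvd_one.mp this)
  · intro y hy
    rw [hy, hs]

/-- An element of order `p (q - 1)`. -/
theorem exists_order_minus [Finite F] {a : ℕ} (ha : 1 ≤ a) (hF : Nat.card F = p ^ a) :
    ∃ y : ↥(chevG2.group F), orderOf y = (p ^ a - 1) * p := by
  have hprime : p.Prime := Fact.out
  have hq2 : 2 ≤ p ^ a := by
    calc 2 ≤ p := hprime.two_le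
      _ = p ^ 1 := (pow_one p).symm
      _ ≤ p ^ a := Nat.pow_le_pow_right hprime.pos ha
  obtain ⟨ζ, hζ⟩ := IsCyclic.exists_generator (α := Fˣ)
  have hord : orderOf ζ = p ^ a - 1 := by
    rw [orderOf_eq_card_of_forall_mem_zpowers hζ, Nat.card_units, hF]
  have hinj : Function.Injective (Cfsg.Agent.Lib.ChevTori.SL2Lang.dg (K := F)) := by
    intro u v h
    have := congrArg (fun z : SL₂ F => z.1 0 0) h
    apply Units.ext
    simpa [Cfsg.Agent.Lib.ChevTori.SL2Lang.dg_val] using this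
  have hs : orderOf (Cfsg.Agent.Lib.ChevTori.SL2Lang.dg ζ) = p ^ a - 1 := by
    rw [orderOf_injective _ hinj, hord]
  refine exists_mul (Cfsg.Agent.Lib.ChevTori.SL2Lang.dg ζ) ?_ |>.imp ?_
  · rw [hs]
    have hd : p ∣ p ^ a := dvd_pow_self p (by omega)
    apply Nat.Coprime.symm
    rw [Nat.Prime.coprime_iff_not_dvd hprime]
    intro h
    have h1 : p ∣ p ^ a - (p ^ a - 1) := Nat.dvd_sub hd h
    have h2 : p ^ a - (p ^ a - 1) = 1 := by omega
    rw [h2] at h1
    exact hprime.one_lt.ne' (Nat.dvd_one.mp h1)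
  · intro y hy
    rw [hy, hs]

end Main

end Cfsg.Agent.Lib.G2Oct.LowPsi
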