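import Mathlib
import Cfsg.Agent.Lib.G2Oct.Chain
import Cfsg.Agent.Lib.G2Oct.BranchA

/-!
Orders of automorphisms of the split octonions fixing an element of square zero.
-/

set_option autoImplicit false
set_option linter.unusedSectionVars false
set_option linter.unusedSimpArgs false
set_option linter.unusedVariables false

namespace Cfsg.Agent.Lib.G2Oct.StabX

open Cfsg.Lie Matrix Polynomial Cfsg.Agent.Lib.G2Oct.Zorn Cfsg.Agent.Lib.G2Oct.Chain Cfsg.Agent.Lib.G2Oct.Ord
  Cfsg.Agent.Lib.G2Oct.BranchA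

variable {F : Type*} [Field F]

/-- The quadratic factor. -/
noncomputable def chi (c : F) : F[X] := X ^ 2 - C c * X + 1

theorem aeval_mul_mulVec (G : Matrix (Fin 8) (Fin 8) F) (f h : F[X]) (y : O F) :
    aeval G (f * h) *ᵥ y = aeval G f *ᵥ (aeval G h *ᵥ y) := by
  rw [map_mul, Matrix.mulVec_mulVec]

theorem P_eq (g : GL (Fin 8) F) (y : O F) : aeval (g : Matrix (Fin 8) (Fin 8) F) (X - 1 : F[X]) *ᵥ y = Pf g y := by
  simp [Pf, act, Matrix.sub_mulVec]

theorem Q_eq (g : GL (Fin 8) F) (c : F) (y : O F) :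
    aeval (g : Matrix (Fin 8) (Fin 8) F) (chi c) *ᵥ y = Qf g c y := by
  simp [chi, Qf, act, Matrix.sub_mulVec, Matrix.add_mulVec, pow_two, ← Matrix.mulVec_mulVec, Algebra.algebraMap_eq_smul_one,
    Matrix.smul_mulVec]

theorem mat_zero (M : Matrix (Fin 8) (Fin 8) F) (h : ∀ y, M *ᵥ y = 0) : M = 0 := by
  ext i j
  have := congrFun (h (Pi.single j 1)) i
  simpa using this

theorem pow_eq_one_of_dvd (g : GL (Fin 8) F) {S : F[X]} {n : ℕ} (hS : aeval (g : Matrix (Fin 8) (Fin 8) F) S = 0)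
    (hd : S ∣ (X ^ n - 1 : F[X])) : g ^ n = 1 := by
  obtain ⟨k, hk⟩ := hd
  have h1 : aeval (g : Matrix (Fin 8) (Fin 8) F) (X ^ n - 1 : F[X]) = 0 := by rw [hk, map_mul, hS, zero_mul]
  apply Units.ext
  simpa [sub_eq_zero] using h1

section

variable {g : GL (Fin 8) F} (hg : g ∈ G2 F) (hx : act g x0 = x0)

include hg hx

theorem ann_S : aeval (g : Matrix (Fin 8) (Fin 8) F) ((X - 1 : F[X]) ^ 3 * chi (trM g) ^ 2) = 0 := by
  have e : ((X - 1 : F[X]) ^ 3 * chi (trM g) ^ 2) =
      (X - 1) * (chi (trM g) * ((X - 1) * (chi (trM g) * (X - 1)))) := by ring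
  rw [e]
  apply mat_zero
  intro y
  rw [aeval_mul_mulVec, aeval_mul_mulVec, aeval_mul_mulVec, aeval_mul_mulVec, P_eq, Q_eq, P_eq, Q_eq, P_eq]
  exact chain hg hx y

theorem ann_S2 (h2 : (2 : F) = 0) : aeval (g : Matrix (Fin 8) (Fin 8) F) ((X - 1 : F[X]) ^ 2 * chi (trM g) ^ 2) = 0 := by
  have e : ((X - 1 : F[X]) ^ 2 * chi (trM g) ^ 2) =
      (X - 1) * (chi (trM g) * (chi (trM g) * (X - 1))) := by ring
  rw [e]
  apply mat_zero
  intro y
  rw [aeval_mul_mulVec, aeval_mul_mulVec, aeval_mul_mulVec, P_eq, Q_eq, Q_eq, P_eq]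
  exact chain2 hg hx h2 y

end

section Two

variable {g : GL (Fin 8) F} {p a : ℕ} [Fact p.Prime] [Finite F]

/-- Characteristic two. -/
theorem stab_two [CharP F 2] (hF : Nat.card F = 2 ^ a) (ha : 1 ≤ a) (hg : g ∈ G2 F) (hx : act g x0 = x0) :
    ∃ m, (m = 8 ∨ m = (2 ^ a - 1) * 2 ∨ m = (2 ^ a + 1) * 2) ∧ g ^ m = 1 := by
  haveI : Fact (Nat.Prime 2) := ⟨Nat.prime_two⟩
  have h2 : (2 : F) = 0 := CharTwo.two_eq_zero
  have h2' : (2 : F[X]) = 0 := CharTwo.two_eq_zero
  have hann := ann_S2 hg hx h2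
  have hq : (trM g) ^ (2 ^ a) = trM g := by
    rw [← hF]
    exact pow_natCard' _
  have hc0 : ∀ c : F, (c = 2 ∨ c = -2) → (X - 1 : F[X]) ^ 2 * chi c ^ 2 ∣ X ^ 8 - 1 := by
    intro c hc
    have hc' : c = 0 := by
      rcases hc with h | h <;> rw [h] <;> simp [h2]
    have e1 : chi c = (X - 1) ^ 2 := by
      rw [hc', chi]
      simp only [map_zero, zero_mul, sub_zero]
      linear_combination (X : F[X]) * h2'
    have e2 : ((X - 1 : F[X]) ^ 8) = X ^ 8 - 1 := by
      have := pow_char_sub (p := 2) (L := F) 4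
      have h4 := pow_char_sub (p := 2) (L := F) 2
      have h5 := pow_char_sub (p := 2) (L := F) 1
      simp only [pow_one, mul_one] at h5
      calc (X - 1 : F[X]) ^ 8 = (((X - 1) ^ 2) ^ 2) ^ 2 := by ring
        _ = X ^ 8 - 1 := by rw [h5, h4, this]
    rw [e1, ← e2]
    exact ⟨(X - 1) ^ 2, by ring⟩
  rcases quad_cases (p := 2) (a := a) ha hq with h | h | ⟨n, hn, hd⟩
  · exact ⟨8, Or.inl rfl, pow_eq_one_of_dvd g hann (hc0 _ (Or.inl h))⟩
  · exact ⟨8, Or.inl rfl, pow_eq_one_of_dvd g hann (hc0 _ (Or.inr h))⟩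
  · refine ⟨n * 2, ?_, ?_⟩
    · rcases hn with h | h <;> rw [h]
      · exact Or.inr (Or.inl rfl)
      · exact Or.inr (Or.inr rfl)
    · apply pow_eq_one_of_dvd g hann
      rw [← pow_char_sub (p := 2) (L := F) n]
      have e : (X - 1 : F[X]) ^ 2 * chi (trM g) ^ 2 = ((X - 1) * (X ^ 2 - C (trM g) * X + 1)) ^ 2 := by
        rw [chi]
        ring
      rw [e]
      exact pow_dvd_pow_of_dvd hd 2

end Two

section Three

theorem inJ_add {u v : O F} (hu : inJ u) (hv : inJ v) : inJ (u + v) := by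
  obtain ⟨a0, a2, a3, a4, a7⟩ := hu
  obtain ⟨b0, b2, b3, b4, b7⟩ := hv
  refine ⟨?_, ?_, ?_, ?_, ?_⟩ <;> simp only [Pi.add_apply, a0, a2, a3, a4, a7, b0, b2, b3, b4, b7, add_zero]

theorem inJ_sub {u v : O F} (hu : inJ u) (hv : inJ v) : inJ (u - v) := by
  obtain ⟨a0, a2, a3, a4, a7⟩ := hu
  obtain ⟨b0, b2, b3, b4, b7⟩ := hv
  refine ⟨?_, ?_, ?_, ?_, ?_⟩ <;> simp only [Pi.sub_apply, a0, a2, a3, a4, a7, b0, b2, b3, b4, b7, sub_zero]

theorem inJ_smul (k : F) {u : O F} (hu : inJ u) : inJ (k • u) := by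
  obtain ⟨a0, a2, a3, a4, a7⟩ := hu
  refine ⟨?_, ?_, ?_, ?_, ?_⟩ <;> simp only [Pi.smul_apply, a0, a2, a3, a4, a7, smul_zero]

theorem B8_sub_left (u v w : O F) : B8 (u - v) w = B8 u w - B8 v w := by
  simp only [B8, Pi.sub_apply]
  ring

theorem B8_sub_right (u v w : O F) : B8 u (v - w) = B8 u v - B8 u w := by
  simp only [B8, Pi.sub_apply]
  ring

theorem B8_comm (u v : O F) : B8 u v = B8 v u := by
  simp only [B8]
  ring

theorem B8_J {u v : O F} (hu : inJ u) (hv : inJ v) : B8 u v = 0 := by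
  obtain ⟨a0, a2, a3, a4, a7⟩ := hu
  obtain ⟨b0, b2, b3, b4, b7⟩ := hv
  simp [B8, a0, a2, a3, a4, a7, b0, b2, b3, b4, b7]

theorem nondeg {z : O F} (h : ∀ w, B8 z w = 0) : z = 0 := by
  have c : ∀ i : Fin 8, B8 z (Pi.single i 1) = 0 := fun i => h _
  funext i
  fin_cases i
  · simpa [B8] using c 7
  · simpa [B8] using c 4
  · simpa [B8] using c 5
  · simpa [B8] using c 6
  · simpa [B8] using c 1
  · simpa [B8] using c 2
  · simpa [B8] using c 3
  · simpa [B8] using c 0

variable {g : GL (Fin 8) F}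

/-- The case of an element with square having unipotent plane part in characteristic three. -/
theorem stab_three [CharP F 3] [Fact (Nat.Prime 3)] (hg : g ∈ G2 F) (hx : act g x0 = x0) (hc : trM g = -2) : g ^ 6 = 1 := by
  have h3 : (3 : F) = 0 := by
    have := CharP.cast_eq_zero F 3
    simpa using this
  have h2ne : (2 : F) ≠ 0 := by
    intro h
    have : (1 : F) = 0 := by linear_combination h3 - h
    exact one_ne_zero this
  have hann := ann_S hg hx
  let G := (g : Matrix (Fin 8) (Fin 8) F)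
  have hgG : ∀ y, G *ᵥ y = act g y := fun y => rfl
  have hchi : chi (trM g) = (X + 1) ^ 2 := by
    rw [hc, chi]
    simp only [map_neg, map_ofNat]
    ring
  have hp6 : (X ^ 6 - 1 : F[X]) = (X - 1) ^ 3 * (X + 1) ^ 3 := by
    have := pow_char_sub (p := 3) (L := F) 2
    rw [show 2 * 3 = 6 from rfl] at this
    rw [← this]
    ring
  obtain ⟨R, hR⟩ : ∃ R : O F → O F, R = fun y => aeval G (X ^ 6 - 1 : F[X]) *ᵥ y := ⟨_, rfl⟩
  have hRa : ∀ y, R y = act (g ^ 6) y - y := by
    intro y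
    rw [hR]
    simp [act, Matrix.sub_mulVec, G]
  have hPlus : ∀ z, aeval G (X + 1 : F[X]) *ᵥ z = act g z + z := by
    intro z
    simp [act, Matrix.add_mulVec, G]
  have hRv : ∀ y, R y = act g (Pf g (Qf g (trM g) (Pf g (Pf g y)))) + Pf g (Qf g (trM g) (Pf g (Pf g y))) := by
    intro y
    have e : (X ^ 6 - 1 : F[X]) = (X + 1) * ((X - 1) * (chi (trM g) * ((X - 1) * (X - 1)))) := by
      rw [hp6, hchi]
      ring
    rw [hR]
    simp only
    rw [e, aeval_mul_mulVec, aeval_mul_mulVec, aeval_mul_mulVec, aeval_mul_mulVec, hPlus, P_eq, Q_eq, P_eq, P_eq]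
  have hRneg : ∀ y, act g (R y) = - R y := by
    intro y
    have e : (X + 1) * (X ^ 6 - 1 : F[X]) = (X - 1) ^ 3 * chi (trM g) ^ 2 := by
      rw [hp6, hchi]
      ring
    have h1 : aeval G (X + 1 : F[X]) *ᵥ R y = 0 := by
      rw [hR]
      simp only
      rw [← aeval_mul_mulVec, e, hann, Matrix.zero_mulVec]
    rw [hPlus] at h1
    exact eq_neg_of_add_eq_zero_left h1
  have hvJ : ∀ y, inJ (Pf g (Qf g (trM g) (Pf g (Pf g y)))) := fun y =>
    Pf_W3 hg hx (Qf_W4 hg hx (Pf_W4 hg hx _))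
  have hRJ : ∀ y, inJ (R y) := by
    intro y
    rw [hRv]
    exact inJ_add (inJ_act hg hx (hvJ y)) (hvJ y)
  -- uniqueness in the eigenspace
  have huniq : ∀ z : O F, inJ z → act g z = -z → z 5 = 0 → z 6 = 0 → z = 0 := by
    intro z hz hgz h5 h6
    have := Pf_x0_of hg hx hz h5 h6
    rw [Pf, hgz] at this
    funext i
    have h' := congrFun this i
    simp only [Pi.sub_apply, Pi.neg_apply, Pi.zero_apply] at h' ⊢
    have : 2 * z i = 0 := by linear_combination -h'
    exact (mul_eq_zero.mp this).resolve_left h2ne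
  have hd := detM hg hx
  have hsum : act g e5 5 + act g e6 6 = -2 := hc
  obtain ⟨A, hA⟩ : ∃ A, A = act g e5 5 := ⟨_, rfl⟩
  obtain ⟨B, hB⟩ : ∃ B, B = act g e6 5 := ⟨_, rfl⟩
  obtain ⟨C', hC⟩ : ∃ C', C' = act g e5 6 := ⟨_, rfl⟩
  obtain ⟨D, hD⟩ : ∃ D, D = act g e6 6 := ⟨_, rfl⟩
  rw [← hA, ← hB, ← hC, ← hD] at hd
  rw [← hA, ← hD] at hsum
  have heig : ∀ z : O F, inJ z → act g z = -z → (A + 1) * z 5 + B * z 6 = 0 ∧ C' * z 5 + (D + 1) * z 6 = 0 := by
    intro z hz hgz
    obtain ⟨c5, c6⟩ := act_J_coord hg hx hz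
    rw [hgz] at c5 c6
    rw [← hA, ← hB] at c5
    rw [← hC, ← hD] at c6
    simp only [Pi.neg_apply] at c5 c6
    constructor
    · linear_combination -c5
    · linear_combination -c6
  have hcoord : ∀ v : O F, inJ v → (act g v + v) 5 = (A + 1) * v 5 + B * v 6 ∧ (act g v + v) 6 = C' * v 5 + (D + 1) * v 6 := by
    intro v hv
    obtain ⟨c5, c6⟩ := act_J_coord hg hx hv
    rw [← hA, ← hB] at c5
    rw [← hC, ← hD] at c6
    simp only [Pi.add_apply]
    rw [c5, c6]
    constructor <;> ring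
  have hzero : ∀ y, R y = 0 := by
    by_cases hM : A + 1 = 0 ∧ B = 0 ∧ C' = 0 ∧ D + 1 = 0
    · intro y
      obtain ⟨m1, m2, m3, m4⟩ := hM
      obtain ⟨c5, c6⟩ := hcoord _ (hvJ y)
      apply huniq _ (hRJ y) (hRneg y)
      · rw [hRv, c5, m1, m2]
        ring
      · rw [hRv, c6, m3, m4]
        ring
    · -- all eigenvectors are proportional in the plane coordinates
      have hprop : ∀ z z' : O F, inJ z → act g z = -z → inJ z' → act g z' = -z' → z 5 * z' 6 - z 6 * z' 5 = 0 := by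
        intro z z' hz hgz hz' hgz'
        obtain ⟨e1, e2⟩ := heig z hz hgz
        obtain ⟨e3, e4⟩ := heig z' hz' hgz'
        by_cases h1 : A + 1 = 0
        · by_cases h2 : B = 0
          · by_cases h3' : C' = 0
            · have h4 : D + 1 ≠ 0 := fun h4 => hM ⟨h1, h2, h3', h4⟩
              have : z 6 = 0 := by
                rw [h3', zero_mul, zero_add] at e2
                exact (mul_eq_zero.mp e2).resolve_left h4
              have h' : z' 6 = 0 := by
                rw [h3', zero_mul, zero_add] at e4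
                exact (mul_eq_zero.mp e4).resolve_left h4
              rw [this, h']
              ring
            · apply mul_left_cancel₀ h3'
              linear_combination (z' 6) * e2 - (z 6) * e4
          · apply mul_left_cancel₀ h2
            linear_combination (-z' 5) * e1 + (z 5) * e3
        · apply mul_left_cancel₀ h1
          linear_combination (z' 6) * e1 - (z 6) * e3
      -- skewness
      have hskew : ∀ y w, B8 (R y) w = - B8 y (R w) := by
        intro y w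
        have h0 := B8_J (hRJ y) (hRJ w)
        have h1 := B8_act (Subgroup.pow_mem _ hg 6) y w
        rw [hRa, hRa, B8_sub_left, B8_sub_right, B8_sub_right] at h0
        rw [hRa, hRa, B8_sub_left, B8_sub_right]
        linear_combination h1 - h0
      have halt : ∀ y, B8 y (R y) = 0 := by
        intro y
        have h1 := hskew y y
        rw [B8_comm] at h1
        have : 2 * B8 y (R y) = 0 := by linear_combination h1
        exact (mul_eq_zero.mp this).resolve_left h2ne
      intro y₀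
      by_contra hne
      have hne' : ¬ (R y₀ 5 = 0 ∧ R y₀ 6 = 0) := fun h => hne (huniq _ (hRJ y₀) (hRneg y₀) h.1 h.2)
      apply hne
      apply nondeg
      intro w
      obtain ⟨ℓ, hℓ⟩ : ∃ ℓ : F, R w 5 = ℓ * R y₀ 5 ∧ R w 6 = ℓ * R y₀ 6 := by
        have hp := hprop _ _ (hRJ y₀) (hRneg y₀) (hRJ w) (hRneg w)
        by_cases h5 : R y₀ 5 = 0
        · have h6 : R y₀ 6 ≠ 0 := fun h6 => hne' ⟨h5, h6⟩
          refine ⟨R w 6 / R y₀ 6, ?_, by field_simp⟩
          rw [h5, zero_mul, sub_eq_zero] at hp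
          have := (mul_eq_zero.mp hp.symm).resolve_left h6
          rw [this, h5, mul_zero]
        · refine ⟨R w 5 / R y₀ 5, by field_simp, ?_⟩
          field_simp
          linear_combination hp
      have hRw : R w = ℓ • R y₀ := by
        have hdiffJ : inJ (R w - ℓ • R y₀) := by
          exact inJ_sub (hRJ w) (inJ_smul ℓ (hRJ y₀))
        have hdiffneg : act g (R w - ℓ • R y₀) = -(R w - ℓ • R y₀) := by
          rw [act_sub, act_smul, hRneg, hRneg]
          simp only [smul_neg]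
          abel
        have := huniq _ hdiffJ hdiffneg (by simp [hℓ.1]) (by simp [hℓ.2])
        exact sub_eq_zero.mp this
      rw [hskew, hRw]
      have e : B8 y₀ (ℓ • R y₀) = ℓ * B8 y₀ (R y₀) := by
        simp only [B8, Pi.smul_apply, smul_eq_mul]
        ring
      rw [e, halt]
      ring
  apply Cfsg.Agent.Lib.G2Oct.Stab.gl_ext_act
  intro y
  have := hzero y
  rw [hRa] at this
  rw [act_one]
  exact sub_eq_zero.mp this

end Three

section Odd

variable {g : GL (Fin 8) F} {p a : ℕ} [Fact p.Prime] [Finite F]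

/-- Odd characteristic. -/
theorem stab_odd [CharP F p] (hp2 : p ≠ 2) (hF : Nat.card F = p ^ a) (ha : 1 ≤ a) (hg : g ∈ G2 F) (hx : act g x0 = x0) :
    ∃ m, (Good p a m ∨ ((p = 3 ∨ p = 5) ∧ m = p ^ 2)) ∧ g ^ m = 1 := by
  have hprime : p.Prime := Fact.out
  have hp3 : 3 ≤ p := by
    have := hprime.two_le
    omega
  have hann := ann_S hg hx
  have hq : (trM g) ^ (p ^ a) = trM g := by
    rw [← hF]
    exact pow_natCard' _
  have hqodd : Odd (p ^ a) := (hprime.odd_of_ne_two hp2).pow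
  rcases quad_cases (p := p) (a := a) ha hq with h | h | ⟨n, hn, hd⟩
  · -- unipotent on the plane
    have hS : (X - 1 : F[X]) ^ 3 * chi (trM g) ^ 2 = (X - 1) ^ 7 := by
      rw [h, chi]
      simp only [map_ofNat]
      ring
    rw [hS] at hann
    have hp1 : (X - 1 : F[X]) ^ p = X ^ p - 1 := by
      have := pow_char_sub (p := p) (L := F) 1
      simpa using this
    by_cases h35 : p = 3 ∨ p = 5
    · refine ⟨p ^ 2, Or.inr ⟨h35, rfl⟩, ?_⟩
      apply pow_eq_one_of_dvd g hann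
      have e : (X ^ (p ^ 2) - 1 : F[X]) = (X - 1) ^ (p ^ 2) := by
        rw [pow_two, pow_mul (X - 1 : F[X]), hp1, pow_char_sub]
      rw [e]
      apply pow_dvd_pow
      rcases h35 with h' | h' <;> rw [h'] <;> norm_num
    · have hp7 : 7 ≤ p := by
        by_contra hlt
        have : p = 3 ∨ p = 4 ∨ p = 5 ∨ p = 6 := by omega
        rcases this with h' | h' | h' | h'
        · exact h35 (Or.inl h')
        · rw [h'] at hprime
          norm_num at hprime
        · exact h35 (Or.inr h')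
        · rw [h'] at hprime
          norm_num at hprime
      refine ⟨(p ^ a - 1) * p, Or.inl (Or.inr (Or.inr (Or.inr (Or.inl rfl)))), ?_⟩
      apply pow_eq_one_of_dvd g hann
      rw [← pow_char_sub]
      have e1 : (X - 1 : F[X]) ∣ X ^ (p ^ a - 1) - 1 := by
        have := sub_dvd_pow_sub_pow (X : F[X]) 1 (p ^ a - 1)
        simpa using this
      exact (pow_dvd_pow _ hp7).trans (pow_dvd_pow_of_dvd e1 p)
  · -- an involution times a unipotent element
    have hq2 : 2 ∣ p ^ a + 1 := by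
      obtain ⟨k, hk⟩ := hqodd
      exact ⟨k + 1, by omega⟩
    by_cases h3 : p = 3
    · subst h3
      haveI : CharP F 3 := inferInstance
      have h6 := stab_three hg hx h
      refine ⟨(3 ^ a + 1) * 3, Or.inl (Or.inr (Or.inr (Or.inr (Or.inr (Or.inl rfl))))), ?_⟩
      obtain ⟨k, hk⟩ := hq2
      rw [hk, show 2 * k * 3 = 6 * k by ring, pow_mul, h6, one_pow]
    · have hp5 : 5 ≤ p := by
        by_contra hlt
        have : p = 3 ∨ p = 4 := by omega
        rcases this with h' | h'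
        · exact h3 h'
        · rw [h'] at hprime
          norm_num at hprime
      refine ⟨(p ^ a + 1) * p, Or.inl (Or.inr (Or.inr (Or.inr (Or.inr (Or.inl rfl))))), ?_⟩
      apply pow_eq_one_of_dvd g hann
      rw [← pow_char_sub]
      have e1 : (X ^ 2 - 1 : F[X]) ∣ X ^ (p ^ a + 1) - 1 := by
        obtain ⟨k, hk⟩ := hq2
        have := sub_dvd_pow_sub_pow (X ^ 2 : F[X]) 1 k
        rw [hk, pow_mul]
        simpa using this
      have e2 : (X - 1 : F[X]) ^ 3 * chi (trM g) ^ 2 ∣ (X ^ 2 - 1) ^ 4 := by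
        rw [h, chi]
        refine ⟨X - 1, ?_⟩
        simp only [map_neg, map_ofNat]
        ring
      exact e2.trans ((pow_dvd_pow _ (by omega : 4 ≤ p)).trans (pow_dvd_pow_of_dvd e1 p))
  · refine ⟨n * p, Or.inl ?_, ?_⟩
    · rcases hn with h | h <;> rw [h]
      · exact Or.inr (Or.inr (Or.inr (Or.inl rfl)))
      · exact Or.inr (Or.inr (Or.inr (Or.inr (Or.inl rfl))))
    · apply pow_eq_one_of_dvd g hann
      rw [← pow_char_sub]
      have e1 : (X - 1 : F[X]) ∣ X ^ n - 1 := (dvd_mul_right _ _).trans hd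
      have e2 : (X - 1 : F[X]) ^ 3 * chi (trM g) ^ 2 = (X - 1) * ((X - 1) * (X ^ 2 - C (trM g) * X + 1)) ^ 2 := by
        rw [chi]
        ring
      rw [e2]
      have e3 : (X - 1 : F[X]) * ((X - 1) * (X ^ 2 - C (trM g) * X + 1)) ^ 2 ∣ (X ^ n - 1) ^ 3 := by
        rw [pow_succ' (X ^ n - 1 : F[X]) 2]
        exact mul_dvd_mul e1 (pow_dvd_pow_of_dvd hd 2)
      exact e3.trans (pow_dvd_pow _ hp3)

end Odd

end Cfsg.Agent.Lib.G2Oct.StabX
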