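import Mathlib
import Cfsg.Agent.Lib.G2Oct.StabX

/-!
Automorphisms of the split octonions of determinant one in odd characteristic fix a nonzero trace zero element;
their orders divide one of the listed numbers.
-/

set_option autoImplicit false
set_option linter.unusedSectionVars false
set_option linter.unusedSimpArgs false
set_option linter.unusedVariables false

namespace Cfsg.Agent.Lib.G2Oct.FixV

open Cfsg.Lie Matrix Cfsg.Agent.Lib.G2Oct.Zorn Cfsg.Agent.Lib.G2Oct.Chain
  Cfsg.Agent.Lib.G2Oct.BranchA Cfsg.Agent.Lib.G2Oct.StabX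

variable {F : Type*} [Field F]

/-- The projection on the unit, as a matrix. -/
noncomputable def Em (F : Type*) [Field F] : Matrix (Fin 8) (Fin 8) F :=
  Matrix.of fun i j => (2 : F)⁻¹ * ((if j = 0 then 1 else 0) + (if j = 7 then 1 else 0)) * one8 i

theorem Em_mulVec (y : O F) : Em F *ᵥ y = ((2 : F)⁻¹ * T8 y) • one8 := by
  funext i
  simp only [Matrix.mulVec, dotProduct, Em, Matrix.of_apply, Pi.smul_apply, smul_eq_mul, T8]
  rw [Fin.sum_univ_eight]
  simp
  ring

/-- The Gram matrix. -/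
noncomputable def Gm (F : Type*) [Field F] : Matrix (Fin 8) (Fin 8) F :=
  Matrix.of fun i j => B8 (Pi.single i 1) (Pi.single j 1)

theorem Gm_dot (x y : O F) : x ⬝ᵥ (Gm F *ᵥ y) = B8 x y := by
  have : Gm F *ᵥ y = ![y 7, -y 4, -y 5, -y 6, -y 1, -y 2, -y 3, y 0] := by
    funext i
    simp only [Matrix.mulVec, dotProduct, Gm, Matrix.of_apply]
    rw [Fin.sum_univ_eight]
    fin_cases i <;> simp [B8]
  rw [this]
  simp only [dotProduct, B8]
  rw [Fin.sum_univ_eight]
  simp
  ring

theorem Gm_det : (Gm F).det ≠ 0 := by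
  intro h
  obtain ⟨v, hv, hM⟩ := Matrix.exists_mulVec_eq_zero_iff.mpr h
  apply hv
  apply nondeg
  intro w
  rw [B8_comm, ← Gm_dot, hM]
  simp

theorem mat_ext {M M' : Matrix (Fin 8) (Fin 8) F} (h : ∀ y, M *ᵥ y = M' *ᵥ y) : M = M' := by
  ext i j
  have := congrFun (h (Pi.single j 1)) i
  simpa using this

theorem mat_ext2 {M M' : Matrix (Fin 8) (Fin 8) F} (h : ∀ x y, x ⬝ᵥ (M *ᵥ y) = x ⬝ᵥ (M' *ᵥ y)) : M = M' := by
  apply mat_ext
  intro y
  funext i
  have := h (Pi.single i 1) y
  simpa using this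

/-- The involution fixing the unit and negating the trace zero elements. -/
noncomputable def Dm (F : Type*) [Field F] : Matrix (Fin 8) (Fin 8) F :=
  (Matrix.diagonal ![1, -1, -1, -1, -1, -1, -1, 1]).submatrix (Equiv.swap 0 7) id

theorem Dm_det : (Dm F).det = -1 := by
  rw [Dm, Matrix.det_permute, Equiv.Perm.sign_swap (by decide), Matrix.det_diagonal, Fin.prod_univ_eight]
  simp

theorem Dm_mulVec (y : O F) : Dm F *ᵥ y = T8 y • one8 - y := by
  funext i
  simp only [Matrix.mulVec, dotProduct, Dm, Matrix.submatrix_apply, id, Pi.sub_apply, Pi.smul_apply, smul_eq_mul, T8]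
  rw [Fin.sum_univ_eight]
  fin_cases i <;> simp [Matrix.diagonal_apply, Equiv.swap_apply_def, one8] <;> ring

theorem T8_one8 : T8 (one8 : O F) = 2 := by
  simp [T8, one8]
  norm_num

theorem T8_add (u v : O F) : T8 (u + v) = T8 u + T8 v := by
  simp only [T8, Pi.add_apply]
  ring

theorem T8_sub (u v : O F) : T8 (u - v) = T8 u - T8 v := by
  simp only [T8, Pi.sub_apply]
  ring

theorem T8_smul' (k : F) (u : O F) : T8 (k • u) = k * T8 u := by
  simp only [T8, Pi.smul_apply, smul_eq_mul]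
  ring

theorem B8_one (x : O F) : B8 x one8 = T8 x := by
  simp [B8, one8, T8]

theorem one_B8 (x : O F) : B8 one8 x = T8 x := by
  simp [B8, one8, T8]
  ring

/-- The fixed vector. -/
theorem exists_fixed (h2 : (2 : F) ≠ 0) {g : GL (Fin 8) F} (hg : g ∈ G2 F)
    (hdet : (g : Matrix (Fin 8) (Fin 8) F).det = 1) : ∃ v : O F, v ≠ 0 ∧ T8 v = 0 ∧ act g v = v := by
  let G := (g : Matrix (Fin 8) (Fin 8) F)
  let Gi := ((g⁻¹ : GL (Fin 8) F) : Matrix (Fin 8) (Fin 8) F)
  have hG : ∀ y, G *ᵥ y = act g y := fun _ => rfl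
  have hGi : ∀ y, Gi *ᵥ y = act g⁻¹ y := fun _ => rfl
  have hdetGi : Gi.det = 1 := by
    have h1 : Gi * G = 1 := by
      simp only [Gi, G]
      rw [← Units.val_mul, inv_mul_cancel, Units.val_one]
    have h2 := congrArg Matrix.det h1
    rw [Matrix.det_mul, hdet, mul_one, Matrix.det_one] at h2
    exact h2
  have hginv : g⁻¹ ∈ G2 F := Subgroup.inv_mem _ hg
  let h := G - 1 + Em F
  let h' := Gi - 1 + Em F
  have hy : ∀ y, h *ᵥ y = act g y - y + ((2 : F)⁻¹ * T8 y) • one8 := by
    intro y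
    simp only [h, Matrix.add_mulVec, Matrix.sub_mulVec, Matrix.one_mulVec, Em_mulVec, hG]
  have hy' : ∀ y, h' *ᵥ y = act g⁻¹ y - y + ((2 : F)⁻¹ * T8 y) • one8 := by
    intro y
    simp only [h', Matrix.add_mulVec, Matrix.sub_mulVec, Matrix.one_mulVec, Em_mulVec, hGi]
  -- the two forms
  have e1 : Gm F * h' = hᵀ * Gm F := by
    apply mat_ext2
    intro x y
    rw [← Matrix.mulVec_mulVec, ← Matrix.mulVec_mulVec, Gm_dot, Matrix.dotProduct_mulVec, Matrix.vecMul_transpose, Gm_dot, hy, hy']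
    have add_l : ∀ u v w : O F, B8 (u + v) w = B8 u w + B8 v w := by
      intro u v w
      simp only [B8, Pi.add_apply]
      ring
    have add_r : ∀ u v w : O F, B8 u (v + w) = B8 u v + B8 u w := by
      intro u v w
      simp only [B8, Pi.add_apply]
      ring
    have smul_l : ∀ (k : F) (u w : O F), B8 (k • u) w = k * B8 u w := by
      intro k u w
      simp only [B8, Pi.smul_apply, smul_eq_mul]
      ring
    have smul_r : ∀ (k : F) (u w : O F), B8 u (k • w) = k * B8 u w := by
      intro k u w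
      simp only [B8, Pi.smul_apply, smul_eq_mul]
      ring
    rw [add_l, add_r, B8_sub_left, B8_sub_right, smul_l, smul_r, B8_one, one_B8]
    have e := B8_act hg x (act g⁻¹ y)
    rw [act_act_inv] at e
    rw [← e]
    ring
  have e2 : h' = Gi * (h * Dm F) := by
    apply mat_ext
    intro y
    rw [← Matrix.mulVec_mulVec, ← Matrix.mulVec_mulVec, hy', hy, Dm_mulVec, hGi]
    simp only [act_sub, act_add, act_smul, act_inv_act, act_one8 hg, act_one8 hginv, T8_sub, T8_smul', T8_one8]
    funext i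
    simp only [Pi.add_apply, Pi.sub_apply, Pi.smul_apply, smul_eq_mul]
    field_simp
    ring
  have e3 : h'.det = h.det := by
    have := congrArg Matrix.det e1
    rw [Matrix.det_mul, Matrix.det_mul, Matrix.det_transpose, mul_comm] at this
    exact mul_right_cancel₀ Gm_det this
  have e4 : h'.det = - h.det := by
    rw [e2, Matrix.det_mul, Matrix.det_mul, hdetGi, Dm_det]
    ring
  have e5 : h.det = 0 := by
    have : 2 * h.det = 0 := by
      rw [e3] at e4
      linear_combination e4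
    exact (mul_eq_zero.mp this).resolve_left h2
  obtain ⟨v, hv, hM⟩ := Matrix.exists_mulVec_eq_zero_iff.mpr e5
  rw [hy] at hM
  have hT : T8 v = 0 := by
    have := congrArg T8 hM
    rw [T8_add, T8_sub, T8_act hg, T8_smul', T8_one8] at this
    have e0 : T8 (0 : O F) = 0 := by simp [T8]
    rw [e0] at this
    field_simp at this
    linear_combination this
  refine ⟨v, hv, hT, ?_⟩
  rw [hT] at hM
  simp only [mul_zero, zero_smul, add_zero] at hM
  exact sub_eq_zero.mp hM

theorem conj_one {g h : GL (Fin 8) F} {m : ℕ} (h1 : (h * g * h⁻¹) ^ m = 1) : g ^ m = 1 := by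
  have h2 : (h * g * h⁻¹) ^ m = h * g ^ m * h⁻¹ := conj_pow
  rw [h2] at h1
  have h3 : g ^ m = h⁻¹ * (h * g ^ m * h⁻¹) * h := by group
  rw [h3, h1]
  group

/-- The upper bound in odd characteristic. -/
theorem upper_odd {p a : ℕ} [Fact p.Prime] [Finite F] [CharP F p] (hp2 : p ≠ 2) (hF : Nat.card F = p ^ a) (ha : 1 ≤ a)
    {g : GL (Fin 8) F} (hg : g ∈ G2 F) (hdet : (g : Matrix (Fin 8) (Fin 8) F).det = 1) :
    ∃ m, (Good p a m ∨ ((p = 3 ∨ p = 5) ∧ m = p ^ 2)) ∧ g ^ m = 1 := by
  have h2 : (2 : F) ≠ 0 := by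
    intro h
    have h' : ((2 : ℕ) : F) = 0 := by exact_mod_cast h
    rw [CharP.cast_eq_zero_iff F p] at h'
    exact hp2 ((Nat.prime_dvd_prime_iff_eq Fact.out Nat.prime_two).mp h')
  obtain ⟨v, hv, hT, hfix⟩ := exists_fixed h2 hg hdet
  by_cases hN : N8 v = 0
  · obtain ⟨h, hh, hhv⟩ := exists_move_sing hT hN hv
    have hg' : h * g * h⁻¹ ∈ G2 F := Subgroup.mul_mem _ (Subgroup.mul_mem _ hh hg) (Subgroup.inv_mem _ hh)
    have hx : act (h * g * h⁻¹) x0 = x0 := by
      rw [act_mul, act_mul, ← hhv, act_inv_act, hfix]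
    obtain ⟨m, hm, h1⟩ := stab_odd hp2 hF ha hg' hx
    exact ⟨m, hm, conj_one h1⟩
  · obtain ⟨m, hm, h1⟩ := branchA hF ha hg hfix (x := v) (by
      rw [hT]
      intro h
      have : 4 * N8 v = 0 := by linear_combination -h
      rcases mul_eq_zero.mp this with h4 | h4
      · apply h2
        have : (2 : F) * 2 = 0 := by linear_combination h4
        exact (mul_self_eq_zero.mp this)
      · exact hN h4)
    exact ⟨m, Or.inl hm, h1⟩

end Cfsg.Agent.Lib.G2Oct.FixV
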