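import Mathlib
import Cfsg.Agent.Lib.G2Oct.FixV

/-!
The orders of automorphisms of the split octonions in characteristic two.
-/

set_option autoImplicit false
set_option linter.unusedSectionVars false
set_option linter.unusedSimpArgs false
set_option linter.unusedVariables false

namespace Cfsg.Agent.Lib.G2Oct.Two

open Cfsg.Lie Matrix Polynomial Cfsg.Agent.Lib.G2Oct.Zorn Cfsg.Agent.Lib.G2Oct.Stab Cfsg.Agent.Lib.G2Oct.Ord
  Cfsg.Agent.Lib.G2Oct.Base Cfsg.Agent.Lib.G2Oct.Chain
  Cfsg.Agent.Lib.G2Oct.BranchA Cfsg.Agent.Lib.G2Oct.StabX Cfsg.Agent.Lib.G2Oct.FixV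

section Block

variable {E : Type*} [Field E]

theorem cof_mul (A : Matrix (Fin 3) (Fin 3) E) : Aᵀ * cofM A = A.det • 1 := by
  ext i j
  fin_cases i <;> fin_cases j <;>
    simp [Matrix.mul_apply, Fin.sum_univ_three, cofM, cross3, Matrix.det_fin_three,
      Matrix.one_apply, Matrix.col] <;> ring

theorem sw_bk_sw (A C : Matrix (Fin 3) (Fin 3) E) (x : O E) : swF (bk A C (swF x)) = bk C A x := by
  funext i
  fin_cases i <;> simp [swF, bk, sc, uv, wv, Matrix.mulVec, dotProduct, Fin.sum_univ_three] <;> ring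

/-- An automorphism swapping two complementary idempotents in characteristic two. -/
theorem branchC_core (h2 : (2 : E) = 0) {g : GL (Fin 8) E} (hg : g ∈ G2 E) {e : O E} (hT : T8 e = 1) (hN : N8 e = 0)
    (hge : act g e = e + one8) :
    ∃ B : Matrix (Fin 3) (Fin 3) E, aeval B (cub B.trace B.trace) = 0 ∧ (∀ n, B ^ n = 1 → g ^ (2 * n) = 1) ∧
      ∀ r' : E, (Lm (e + r' • one8) * ((g ^ 2 : GL (Fin 8) E) : Matrix (Fin 8) (Fin 8) E)).trace = 1 + B.trace := by
  obtain ⟨h, hh, hhe⟩ := exists_move_idem hT hN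
  obtain ⟨g', hgd⟩ : ∃ g', g' = h * g * h⁻¹ := ⟨_, rfl⟩
  have hg' : g' ∈ G2 E := by
    rw [hgd]
    exact Subgroup.mul_mem _ (Subgroup.mul_mem _ hh hg) (Subgroup.inv_mem _ hh)
  have h1 : act g' e0 = e0 + one8 := by
    rw [hgd, act_mul, act_mul, ← hhe, act_inv_act, hge, act_add, act_one8 hh]
  have hτ : swG * g' ∈ G2 E := Subgroup.mul_mem _ swG_mem hg'
  have hτe : act (swG * g') e0 = e0 := by
    rw [act_mul, h1, swG_act]
    funext i
    fin_cases i <;> simp [swF, e0, one8, h2]
    linear_combination h2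
  obtain ⟨A, hdet, hAC, hA⟩ := stab_e0 hτ hτe
  obtain ⟨C, hC⟩ : ∃ C, C = cofM A := ⟨_, rfl⟩
  rw [← hC] at hAC hA
  have hsw : ∀ x, act g' x = swF (bk A C x) := by
    intro x
    rw [← hA, act_mul, swG_act, sw_sw]
  have hsq : ∀ x, act (g' ^ 2) x = bk (C * A) (A * C) x := by
    intro x
    rw [pow_two, act_mul, hsw, hsw, sw_bk_sw, bk_bk]
  have hCA : C * Aᵀ = 1 := mul_eq_one_comm.mp hAC
  have hACt : A * Cᵀ = 1 := by
    have := congrArg Matrix.transpose hCA
    simpa using this
  have hCtA : Cᵀ * A = 1 := mul_eq_one_comm.mp hACt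
  have hdetC : C.det = 1 := by
    have := congrArg Matrix.det hAC
    rw [Matrix.det_mul, Matrix.det_transpose, hdet, one_mul, Matrix.det_one] at this
    exact this
  obtain ⟨B, hB⟩ : ∃ B, B = C * A := ⟨_, rfl⟩
  obtain ⟨D, hD⟩ : ∃ D, D = A * C := ⟨_, rfl⟩
  rw [← hB, ← hD] at hsq
  have hdetB : B.det = 1 := by
    rw [hB, Matrix.det_mul, hdetC, hdet, one_mul]
  have hBD : Bᵀ * D = 1 := by
    rw [hB, hD, Matrix.transpose_mul]
    calc Aᵀ * Cᵀ * (A * C) = Aᵀ * (Cᵀ * A) * C := by simp only [Matrix.mul_assoc]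
      _ = 1 := by rw [hCtA, Matrix.mul_one, hAC]
  have hcof : cofM B = D := by
    have h3 := cof_mul B
    rw [hdetB, one_smul] at h3
    have h4 : D * Bᵀ = 1 := mul_eq_one_comm.mp hBD
    calc cofM B = (D * Bᵀ) * cofM B := by rw [h4, Matrix.one_mul]
      _ = D := by rw [Matrix.mul_assoc, h3, Matrix.mul_one]
  have htr : D.trace = B.trace := by
    rw [hD, hB, Matrix.trace_mul_comm]
  refine ⟨B, ?_, ?_, ?_⟩
  · have := cubic_eq B hdetB
    rw [hcof, htr] at this
    simpa [cub, map_sub, map_add, map_mul, aeval_X, aeval_C, Algebra.algebraMap_eq_smul_one, smul_mul_assoc] using this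
  · intro n hn
    have hsemi : SemiconjBy A B D := by
      show A * B = D * A
      rw [hB, hD, Matrix.mul_assoc]
    have h5 := hsemi.pow_right n
    have h6 : A * B ^ n = D ^ n * A := h5
    rw [hn, Matrix.mul_one] at h6
    have hDn : D ^ n = 1 := by
      calc D ^ n = D ^ n * (A * Cᵀ) := by rw [hACt, Matrix.mul_one]
        _ = (D ^ n * A) * Cᵀ := by rw [Matrix.mul_assoc]
        _ = 1 := by rw [← h6, hACt]
    have h7 : (g' ^ 2) ^ n = 1 := by
      apply gl_ext_act
      intro x
      rw [act_pow_bk hsq, hn, hDn, bk_one, act_one]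
    rw [← pow_mul, hgd] at h7
    exact conj_one h7
  · intro r'
    have hy : act h (e + r' • one8) = sc (1 + r') r' := by
      rw [act_add, act_smul, hhe, act_one8 hh]
      funext i
      fin_cases i <;> simp [e0, one8, sc]
    have h8 := trace_Lm_conj (g := g ^ 2) hh (e + r' • one8)
    rw [hy] at h8
    have h9 : h * g ^ 2 * h⁻¹ = g' ^ 2 := by
      rw [hgd]
      exact conj_pow.symm
    rw [h9, trace_Lm_bk hsq, htr] at h8
    rw [← h8]
    linear_combination (r' * (1 + B.trace)) * h2

end Block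

section Main

variable {F : Type*} [Field F] [Finite F] {a : ℕ}

/-- An automorphism sending an element of trace one to the sum with the unit. -/
theorem branchC [CharP F 2] (hF : Nat.card F = 2 ^ a) (ha : 1 ≤ a) {g : GL (Fin 8) F} (hg : g ∈ G2 F) {y : O F}
    (hT : T8 y = 1) (hgy : act g y = y + one8) :
    ∃ m, (m = 8 ∨ m = (2 ^ a - 1) * 2 ∨ m = (2 ^ a + 1) * 2) ∧ g ^ m = 1 := by
  haveI : Fact (Nat.Prime 2) := ⟨Nat.prime_two⟩
  let E := AlgebraicClosure F
  let ι : F →+* E := algebraMap F E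
  haveI : CharP E 2 := charP_of_injective_algebraMap (algebraMap F E).injective 2
  have h2 : (2 : E) = 0 := CharTwo.two_eq_zero
  have h2F : (2 : F) = 0 := CharTwo.two_eq_zero
  -- the root
  obtain ⟨r', hr'⟩ : ∃ r' : E, r' ^ 2 + r' + ι (N8 y) = 0 := by
    let f : E[X] := X ^ 2 + X + C (ι (N8 y))
    have hf : f.degree ≠ 0 := by
      have : f.degree = 2 := by
        simp only [f]
        compute_degree!
      rw [this]
      norm_num
    obtain ⟨r, hr⟩ := IsAlgClosed.exists_root f hf
    refine ⟨r, ?_⟩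
    simpa [f, IsRoot.def] using hr
  obtain ⟨e, he⟩ : ∃ e : O E, e = ι ∘ y + r' • one8 := ⟨_, rfl⟩
  have hNadd : ∀ (x : O E) (k : E), N8 (x + k • one8) = N8 x + k * T8 x + k ^ 2 := by
    intro x k
    simp [N8, T8, one8]
    ring
  have hTadd : ∀ (x : O E) (k : E), T8 (x + k • one8) = T8 x + 2 * k := by
    intro x k
    simp [T8, one8]
    ring
  have hTe : T8 e = 1 := by
    rw [he, hTadd, T8_map, hT, h2]
    simp
  have hNe : N8 e = 0 := by
    rw [he, hNadd, T8_map, N8_map, hT]
    simp only [map_one]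
    linear_combination hr'
  have hone : (ι ∘ (one8 : O F) : O E) = one8 := by
    funext i
    fin_cases i <;> simp [one8]
  have hgE : act (mapG ι g) e = e + one8 := by
    rw [he, act_add, act_smul, act_map, hgy, act_one8 (mapG_mem ι hg)]
    have : (ι ∘ (y + one8) : O E) = ι ∘ y + one8 := by
      rw [← hone]
      funext i
      simp
    rw [this]
    abel
  obtain ⟨B, hcub, hpow, htrace⟩ := branchC_core h2 (mapG_mem ι hg) hTe hNe hgE
  -- the trace lies in the small field
  obtain ⟨τ, hτ⟩ : ∃ τ : F, τ = (Lm y * ((g ^ 2 : GL (Fin 8) F) : Matrix (Fin 8) (Fin 8) F)).trace := ⟨_, rfl⟩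
  have hτE : ι τ = 1 + B.trace := by
    have h3 := htrace r'
    have h4 : e + r' • one8 = ι ∘ y := by
      rw [he, add_assoc, ← add_smul]
      have : r' + r' = 2 * r' := by ring
      rw [this, h2]
      simp
    rw [h4, mapG_pow, Lm_map, mapG_val, ← Matrix.map_mul, Base.trace_map, ← hτ] at h3
    exact h3
  have hfin : ∀ P : E[X], P = (X - 1) * (X ^ 2 - C (ι τ) * X + 1) → aeval B P = 0 := by
    intro P hP
    have e1 : P = cub B.trace B.trace := by
      rw [hP, hτE, cub]
      have h2X : (2 : E[X]) = 0 := CharTwo.two_eq_zero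
      simp only [map_add, map_one]
      linear_combination (- X ^ 2 + X) * h2X
    rw [e1]
    exact hcub
  have hmat : ∀ n, ((X - 1) * (X ^ 2 - C (ι τ) * X + 1) : E[X]) ∣ X ^ n - 1 → g ^ (2 * n) = 1 := by
    intro n hd
    obtain ⟨k, hk⟩ := hd
    have h5 : aeval B (X ^ n - 1 : E[X]) = 0 := by
      rw [hk, map_mul, hfin _ rfl, zero_mul]
    have h6 : B ^ n = 1 := by
      simpa [sub_eq_zero] using h5
    have h7 := hpow n h6
    rw [mapG_pow] at h7
    apply mapG_inj ι
    rw [h7]
    simp [mapG]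
  have hq : τ ^ (2 ^ a) = τ := by
    rw [← hF]
    exact pow_natCard' _
  have hzero : τ = 0 → g ^ 8 = 1 := by
    intro hτ0
    have h8 := hmat 4 (by
      rw [hτ0]
      simp only [map_zero, zero_mul, sub_zero]
      have h2X : (2 : E[X]) = 0 := CharTwo.two_eq_zero
      have e2 : ((X - 1 : E[X]) ^ 4) = X ^ 4 - 1 := by
        have h4 := pow_char_sub (p := 2) (L := E) 2
        have h5 := pow_char_sub (p := 2) (L := E) 1
        simp only [pow_one, mul_one] at h5
        calc (X - 1 : E[X]) ^ 4 = ((X - 1) ^ 2) ^ 2 := by ring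
          _ = X ^ 4 - 1 := by rw [h5, h4]
      rw [← e2]
      refine ⟨X - 1, ?_⟩
      linear_combination (- (X - 1) ^ 2 * X) * h2X)
    simpa using h8
  rcases quad_cases (p := 2) (a := a) ha hq with h | h | ⟨n, hn, hd⟩
  · exact ⟨8, Or.inl rfl, hzero (by rw [h, h2F])⟩
  · exact ⟨8, Or.inl rfl, hzero (by rw [h, h2F]; simp)⟩
  · refine ⟨n * 2, ?_, ?_⟩
    · rcases hn with h | h <;> rw [h]
      · exact Or.inr (Or.inl rfl)
      · exact Or.inr (Or.inr rfl)
    · rw [mul_comm]
      apply hmat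
      have h3 := Polynomial.map_dvd ι hd
      simpa [Polynomial.map_mul, Polynomial.map_sub, Polynomial.map_add] using h3

/-- The embedding of the six middle coordinates. -/
def em (v : Fin 6 → F) : O F := ![0, v 0, v 1, v 2, v 3, v 4, v 5, 0]

/-- The six middle coordinates. -/
def pr (y : O F) : Fin 6 → F := ![y 1, y 2, y 3, y 4, y 5, y 6]

/-- The map induced on the six middle coordinates. -/
noncomputable def fL (g : GL (Fin 8) F) : (Fin 6 → F) →ₗ[F] (Fin 6 → F) where
  toFun v := pr (Pf g (em v))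
  map_add' u v := by
    have e : em (u + v) = em u + em v := by
      funext i
      fin_cases i <;> simp [em]
    funext i
    rw [e]
    simp only [Pf, act_add]
    fin_cases i <;> simp [pr] <;> ring
  map_smul' k v := by
    have e : em (k • v) = k • em v := by
      funext i
      fin_cases i <;> simp [em]
    funext i
    rw [e]
    simp only [Pf, act_smul]
    fin_cases i <;> simp [pr] <;> ring

theorem eq_smul_one8 (h2 : (2 : F) = 0) {u : O F} (hT : T8 u = 0) (hp : pr u = 0) : u = u 0 • one8 := by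
  have c : ∀ i, pr u i = 0 := fun i => by rw [hp]; rfl
  have c1 : u 1 = 0 := c 0
  have c2 : u 2 = 0 := c 1
  have c3 : u 3 = 0 := c 2
  have c4 : u 4 = 0 := c 3
  have c5 : u 5 = 0 := c 4
  have c6 : u 6 = 0 := c 5
  have c7 : u 7 = u 0 := by
    simp only [T8] at hT
    linear_combination hT - h2 * u 0
  funext i
  fin_cases i <;> simp [one8, c1, c2, c3, c4, c5, c6, c7]

/-- The upper bound in characteristic two. -/
theorem upper_two [CharP F 2] (hF : Nat.card F = 2 ^ a) (ha : 1 ≤ a) {g : GL (Fin 8) F} (hg : g ∈ G2 F) :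
    ∃ m, (Good 2 a m ∨ m = 8) ∧ g ^ m = 1 := by
  classical
  haveI : Fact (Nat.Prime 2) := ⟨Nat.prime_two⟩
  have h2 : (2 : F) = 0 := CharTwo.two_eq_zero
  have hconv : ∀ m, (m = 8 ∨ m = (2 ^ a - 1) * 2 ∨ m = (2 ^ a + 1) * 2) → (Good 2 a m ∨ m = 8) := by
    intro m hm
    rcases hm with h | h | h
    · exact Or.inr h
    · exact Or.inl (Or.inr (Or.inr (Or.inr (Or.inl h))))
    · exact Or.inl (Or.inr (Or.inr (Or.inr (Or.inr (Or.inl h)))))
  have hPT : ∀ z : O F, T8 (Pf g z) = 0 := by
    intro z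
    have := T8_act hg z
    simp only [Pf, T8, Pi.sub_apply] at this ⊢
    linear_combination this
  have hNadd : ∀ (x : O F) (k : F), N8 (x + k • one8) = N8 x + k * T8 x + k ^ 2 := by
    intro x k
    simp [N8, T8, one8]
    ring
  by_cases hinj : Function.Injective (fL g)
  · have hsurj := LinearMap.injective_iff_surjective.mp hinj
    obtain ⟨v, hv⟩ := hsurj (pr (Pf g e0))
    obtain ⟨y, hy⟩ : ∃ y : O F, y = e0 + em v := ⟨_, rfl⟩
    have hTy : T8 y = 1 := by
      rw [hy]
      simp [T8, e0, em]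
    have hp : pr (Pf g y) = 0 := by
      have e1 : Pf g y = Pf g e0 + Pf g (em v) := by
        rw [hy]
        simp only [Pf, act_add]
        abel
      have e2 : pr (Pf g (em v)) = pr (Pf g e0) := hv
      funext i
      have e3 := congrFun e2 i
      rw [e1]
      fin_cases i <;> simp [pr] at e3 ⊢ <;> rw [e3] <;> linear_combination h2 * (_ : F)
    have hu := eq_smul_one8 h2 (hPT y) hp
    obtain ⟨k, hk⟩ : ∃ k, k = Pf g y 0 := ⟨_, rfl⟩
    rw [← hk] at hu
    have hgy : act g y = y + k • one8 := by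
      rw [← hu, Pf]
      abel
    have hN := N8_act hg y
    rw [hgy, hNadd, hTy] at hN
    have hkk : k * (k + 1) = 0 := by linear_combination hN
    rcases mul_eq_zero.mp hkk with h0 | h1
    · rw [h0, zero_smul, add_zero] at hgy
      obtain ⟨m, hm, h⟩ := branchA hF ha hg hgy (by
        rw [hTy]
        intro h
        have : (1 : F) = 0 := by linear_combination h + 2 * h2 * N8 y
        exact one_ne_zero this)
      exact ⟨m, Or.inl hm, h⟩
    · have hk1 : k = 1 := by linear_combination h1 - h2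
      rw [hk1, one_smul] at hgy
      obtain ⟨m, hm, h⟩ := branchC hF ha hg hTy hgy
      exact ⟨m, hconv m hm, h⟩
  · obtain ⟨v, hvne, hv⟩ : ∃ v, v ≠ 0 ∧ fL g v = 0 := by
      by_contra hno
      apply hinj
      rw [injective_iff_map_eq_zero]
      intro w hw
      by_contra hw0
      exact hno ⟨w, hw0, hw⟩
    obtain ⟨y, hy⟩ : ∃ y : O F, y = em v := ⟨_, rfl⟩
    have hTy : T8 y = 0 := by
      rw [hy]
      simp [T8, em]
    have hp : pr (Pf g y) = 0 := by
      rw [hy]
      exact hv
    have hu := eq_smul_one8 h2 (hPT y) hp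
    obtain ⟨k, hk⟩ : ∃ k, k = Pf g y 0 := ⟨_, rfl⟩
    rw [← hk] at hu
    have hgy : act g y = y + k • one8 := by
      rw [← hu, Pf]
      abel
    have hN := N8_act hg y
    rw [hgy, hNadd, hTy] at hN
    have hk0 : k = 0 := by
      have : k ^ 2 = 0 := by linear_combination hN
      exact pow_eq_zero_iff (two_ne_zero) |>.mp this
    rw [hk0, zero_smul, add_zero] at hgy
    haveI := Fintype.ofFinite F
    obtain ⟨s, hs⟩ := FiniteField.isSquare_of_char_two (ringChar.eq F 2) (N8 y)
    obtain ⟨x, hx⟩ : ∃ x : O F, x = y + s • one8 := ⟨_, rfl⟩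
    have hTx : T8 x = 0 := by
      rw [hx]
      simp only [T8, Pi.add_apply, Pi.smul_apply, smul_eq_mul]
      simp only [T8] at hTy
      simp [one8]
      linear_combination hTy + s * h2
    have hNx : N8 x = 0 := by
      rw [hx, hNadd, hTy, hs]
      linear_combination (s ^ 2) * h2
    have hxne : x ≠ 0 := by
      intro h0
      apply hvne
      rw [hx, hy] at h0
      funext i
      have c : ∀ j, (em v + s • one8 : O F) j = 0 := fun j => by rw [h0]; rfl
      fin_cases i
      · simpa [em, one8] using c 1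
      · simpa [em, one8] using c 2
      · simpa [em, one8] using c 3
      · simpa [em, one8] using c 4
      · simpa [em, one8] using c 5
      · simpa [em, one8] using c 6
    have hgx : act g x = x := by
      rw [hx, act_add, act_smul, hgy, act_one8 hg]
    obtain ⟨h, hh, hhv⟩ := exists_move_sing hTx hNx hxne
    have hg' : h * g * h⁻¹ ∈ G2 F := Subgroup.mul_mem _ (Subgroup.mul_mem _ hh hg) (Subgroup.inv_mem _ hh)
    have hx0 : act (h * g * h⁻¹) x0 = x0 := by
      rw [act_mul, act_mul, ← hhv, act_inv_act, hgx]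
    obtain ⟨m, hm, h1⟩ := stab_two hF ha hg' hx0
    exact ⟨m, hconv m hm, conj_one h1⟩

end Main

end Cfsg.Agent.Lib.G2Oct.Two
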