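import Mathlib
import Cfsg.Agent.Lib.G2Oct.Two
import Cfsg.Agent.Lib.G2Oct.Lift2
import Cfsg.Agent.Lib.G2Oct.LowPsi
import Cfsg.Agent.Lib.G2Oct.LowW
import Cfsg.Agent.Lib.G2Oct.Low6
import Cfsg.Agent.Lib.G2Oct.Arith

/-!
The element orders of the Chevalley group of type `G₂`.
-/

set_option autoImplicit false
set_option linter.unusedSectionVars false
set_option linter.unusedSimpArgs false
set_option linter.unusedVariables false

namespace Cfsg.Agent.Lib.G2Oct.Final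

open Cfsg.Lie Cfsg.Agent.Lib.G2Oct.BranchA Cfsg.Agent.Lib.G2Oct.Arith

variable {F : Type*} [Field F] [Finite F] {p a : ℕ}

/-- Every element has an order dividing a listed number, odd characteristic. -/
theorem upper_odd [Fact p.Prime] [CharP F p] (hp2 : p ≠ 2) (hF : Nat.card F = p ^ a) (ha : 1 ≤ a) (g : ↥(chevG2.group F)) :
    ∃ m, (Good p a m ∨ ((p = 3 ∨ p = 5) ∧ m = p ^ 2)) ∧ g ^ m = 1 := by
  obtain ⟨y, hy, hdet, hrel⟩ := Cfsg.Agent.Lib.G2Oct.Lift2.exists_lift (p := p) g.2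
  obtain ⟨m, hm, h⟩ := Cfsg.Agent.Lib.G2Oct.FixV.upper_odd hp2 hF ha hy hdet
  refine ⟨m, hm, ?_⟩
  apply Subtype.ext
  exact Cfsg.Agent.Lib.G2Oct.Lift2.pow_eq_one_of_lift hrel h

/-- Every element has an order dividing a listed number, even characteristic. -/
theorem upper_two [CharP F 2] (hF : Nat.card F = 2 ^ a) (ha : 1 ≤ a) (g : ↥(chevG2.group F)) :
    ∃ m, (Good 2 a m ∨ m = 8) ∧ g ^ m = 1 := by
  haveI : Fact (Nat.Prime 2) := ⟨Nat.prime_two⟩
  obtain ⟨y, hy, hdet, hrel⟩ := Cfsg.Agent.Lib.G2Oct.Lift2.exists_lift (p := 2) g.2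
  obtain ⟨m, hm, h⟩ := Cfsg.Agent.Lib.G2Oct.Two.upper_two hF ha hy
  refine ⟨m, hm, ?_⟩
  apply Subtype.ext
  exact Cfsg.Agent.Lib.G2Oct.Lift2.pow_eq_one_of_lift hrel h

/-- The characteristic from the order. -/
theorem charP_of_card {F : Type*} [Field F] [Fintype F] {p a : ℕ} (hp : p.Prime) (ha : 1 ≤ a)
    (hF : Fintype.card F = p ^ a) : CharP F p := by
  obtain ⟨r, hr⟩ := CharP.exists F
  haveI : Fact r.Prime := ⟨CharP.char_is_prime F r⟩
  obtain ⟨n, hrp, hn⟩ := FiniteField.card F r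
  have h1 : r ∣ p ^ a := by
    rw [← hF, hn]
    exact dvd_pow_self r n.ne_zero
  have h2 : r = p := (Nat.prime_dvd_prime_iff_eq hrp hp).mp (hrp.dvd_of_dvd_pow h1)
  rw [← h2]
  exact hr

/-- The numbers of the list are orders, odd characteristic. -/
theorem lower_odd {F : Type*} [Field F] [Fintype F] [Fact p.Prime] [CharP F p] (hF : Fintype.card F = p ^ a) (ha : 1 ≤ a)
    {u : ℕ} (hu : p ^ a = u + 1) (hu4 : 4 ≤ u) {m : ℕ} (hm : InL p u m) : ∃ g : ↥(chevG2.group F), orderOf g = m := by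
  have hF' : Nat.card F = p ^ a := by rw [Nat.card_eq_fintype_card, hF]
  rcases hm with rfl | rfl | rfl | rfl | rfl | ⟨h35, rfl⟩
  · obtain ⟨g, hg⟩ := Cfsg.Agent.Lib.G2Oct.LowPsi.exists_order_plus (F := F) (p := p) ha hF'
    refine ⟨g, ?_⟩
    rw [hg, hu]
    ring
  · obtain ⟨g, hg⟩ := Cfsg.Agent.Lib.G2Oct.LowPsi.exists_order_minus (F := F) (p := p) ha hF'
    refine ⟨g, ?_⟩
    rw [hg, hu]
    simp only [Nat.add_sub_cancel]
    ring
  · obtain ⟨g, hg⟩ := Cfsg.Agent.Lib.G2Oct.LowSL.exists_order_sq_sub_one (F := F)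
    refine ⟨g, ?_⟩
    rw [hg, hF', hu]
    have : (u + 1) ^ 2 = u * (u + 2) + 1 := by ring
    rw [this]
    simp
  · obtain ⟨g, hg⟩ := Cfsg.Agent.Lib.G2Oct.LowSL.exists_order_d3 (F := F) (by rw [hF, hu]; omega)
    refine ⟨g, ?_⟩
    rw [hg, hF, hu]
    ring
  · obtain ⟨g, hg⟩ := Cfsg.Agent.Lib.G2Oct.Low6.exists_order_d6 (F := F) (p ^ a) hF (by rw [hu]; omega)
    refine ⟨g, ?_⟩
    rw [hg, hu]
    have : (u + 1) ^ 2 = u ^ 2 + u + (u + 1) := by ring
    rw [this]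
    simp
  · rcases h35 with h | h
    · subst h
      exact Cfsg.Agent.Lib.G2Oct.LowW.exists_order_9
    · subst h
      exact Cfsg.Agent.Lib.G2Oct.LowW.exists_order_25

end Cfsg.Agent.Lib.G2Oct.Final
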